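import Cfsg.Agent.Lib.Geometric.SLThree.Invol

/-!
The standard extraspecial group of order 27 in `SL₃` and the elements `W₀`, `W₁`, `W₂` of its
normaliser squaring to the inverting involution.
-/

set_option autoImplicit false
set_option linter.unusedSectionVars false
set_option linter.style.haveILetI false

namespace CfsgLib.Geometric.SLThree

open Matrix

variable {F : Type*} [Field F]

/-- A cube root of unity other than one, with three invertible. -/
structure Omega (F : Type*) [Field F] where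
  w : F
  root : w ^ 2 + w + 1 = 0
  three : (3 : F) ≠ 0
  two : (2 : F) ≠ 0

namespace Omega

variable (o : Omega F)

lemma cube : o.w ^ 3 = 1 := by linear_combination (o.w - 1) * o.root

lemma ne_zero : o.w ≠ 0 := fun h => by simpa [h] using o.root

lemma ne_one : o.w ≠ 1 := fun h => o.three (by have := o.root; rw [h] at this; linear_combination this)

lemma sq_ne_one : o.w ^ 2 ≠ 1 := fun h => o.ne_one (by linear_combination o.cube - o.w * h)

lemma sq_ne : o.w ^ 2 ≠ o.w := fun h => o.ne_one (mul_left_cancel₀ o.ne_zero (by linear_combination h))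

lemma pow_mod (n : ℕ) : o.w ^ n = o.w ^ (n % 3) := by
  conv_lhs => rw [← Nat.mod_add_div n 3, pow_add, pow_mul, o.cube, one_pow, mul_one]

lemma root_cases {x : F} (hx : x ^ 3 = 1) : x = 1 ∨ x = o.w ∨ x = o.w ^ 2 := by
  have h : (x - 1) * ((x - o.w) * (x - o.w ^ 2)) = 0 := by
    linear_combination hx + (-x ^ 2 + x * o.w - o.w + 1) * o.root
  rcases mul_eq_zero.mp h with h | h
  · exact Or.inl (sub_eq_zero.mp h)
  rcases mul_eq_zero.mp h with h | h
  · exact Or.inr (Or.inl (sub_eq_zero.mp h))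
  · exact Or.inr (Or.inr (sub_eq_zero.mp h))

/-- `1 / √-3`. -/
noncomputable def δ : F := (o.w ^ 2 - o.w) / 3

lemma three_δ : 3 * o.δ = o.w ^ 2 - o.w := by
  rw [δ, mul_div_assoc']; exact mul_div_cancel_left₀ _ o.three

lemma δ_sq : 3 * o.δ ^ 2 + 1 = 0 := by
  have h := o.root
  have h' := o.three_δ
  apply mul_left_cancel₀ o.three
  linear_combination (3 * o.δ + o.w ^ 2 - o.w) * h' + (o.w ^ 2 - 3 * o.w + 3) * h

/-! ### The matrices -/

/-- `diag (1, ω, ω²)`. -/
def Dmat : Matrix (Fin 3) (Fin 3) F := !![1, 0, 0; 0, o.w, 0; 0, 0, o.w ^ 2]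
/-- The cyclic shift. -/
def Pmat (_ : Omega F) : Matrix (Fin 3) (Fin 3) F := !![0, 0, 1; 1, 0, 0; 0, 1, 0]
/-- The scalar `ω`. -/
def Zmat : Matrix (Fin 3) (Fin 3) F := !![o.w, 0, 0; 0, o.w, 0; 0, 0, o.w]
/-- The inverting involution. -/
def tmat (_ : Omega F) : Matrix (Fin 3) (Fin 3) F := !![-1, 0, 0; 0, 0, -1; 0, -1, 0]
/-- `diag (ω, 1, 1)`. -/
def Emat : Matrix (Fin 3) (Fin 3) F := !![o.w, 0, 0; 0, 1, 0; 0, 0, 1]
/-- The Fourier matrix. -/
noncomputable def W0mat : Matrix (Fin 3) (Fin 3) F :=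
  o.δ • !![1, 1, 1; 1, o.w, o.w ^ 2; 1, o.w ^ 2, o.w]
/-- Its first conjugate. -/
noncomputable def W1mat : Matrix (Fin 3) (Fin 3) F :=
  o.δ • !![1, o.w, o.w; o.w ^ 2, o.w, o.w ^ 2; o.w ^ 2, o.w ^ 2, o.w]
/-- Its second conjugate. -/
noncomputable def W2mat : Matrix (Fin 3) (Fin 3) F :=
  o.δ • !![1, o.w ^ 2, o.w ^ 2; o.w, o.w, o.w ^ 2; o.w, o.w ^ 2, o.w]


lemma det_Dmat : o.Dmat.det = 1 := by simp [Dmat, det_fin_three]; linear_combination o.cube
lemma det_Pmat : o.Pmat.det = 1 := by simp [Pmat, det_fin_three]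
lemma det_Zmat : o.Zmat.det = 1 := by simp [Zmat, det_fin_three]; linear_combination o.cube
lemma det_tmat : o.tmat.det = 1 := by simp [tmat, det_fin_three]
lemma det_W0mat : o.W0mat.det = 1 := by
  have h1 := o.δ_sq; have h2 := o.three_δ; have h3 := o.root
  simp [W0mat, det_fin_three]; grind
lemma det_W1mat : o.W1mat.det = 1 := by
  have h1 := o.δ_sq; have h2 := o.three_δ; have h3 := o.root
  simp [W1mat, det_fin_three]; grind
lemma det_W2mat : o.W2mat.det = 1 := by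
  have h1 := o.δ_sq; have h2 := o.three_δ; have h3 := o.root
  simp [W2mat, det_fin_three]; grind

/-- A matrix of determinant one as an element of `GL₃`. -/
noncomputable def mk1 (M : Matrix (Fin 3) (Fin 3) F) (h : M.det = 1) : GL (Fin 3) F :=
  Matrix.GeneralLinearGroup.mkOfDetNeZero M (by rw [h]; exact one_ne_zero)

lemma mk1_val (M : Matrix (Fin 3) (Fin 3) F) (h : M.det = 1) : (mk1 M h : Matrix (Fin 3) (Fin 3) F) = M :=
  rfl

lemma mk1_mem (M : Matrix (Fin 3) (Fin 3) F) (h : M.det = 1) :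
    mk1 M h ∈ Cfsg.Geo.specialLinear (Fin 3) F := (mem_specialLinear_iff _).mpr h

noncomputable def D : GL (Fin 3) F := mk1 o.Dmat o.det_Dmat
noncomputable def P : GL (Fin 3) F := mk1 o.Pmat o.det_Pmat
noncomputable def Z : GL (Fin 3) F := mk1 o.Zmat o.det_Zmat
noncomputable def t : GL (Fin 3) F := mk1 o.tmat o.det_tmat
noncomputable def W0 : GL (Fin 3) F := mk1 o.W0mat o.det_W0mat
noncomputable def W1 : GL (Fin 3) F := mk1 o.W1mat o.det_W1mat
noncomputable def W2 : GL (Fin 3) F := mk1 o.W2mat o.det_W2mat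
noncomputable def E : GL (Fin 3) F :=
  Matrix.GeneralLinearGroup.mkOfDetNeZero o.Emat (by simp [Emat, det_fin_three, o.ne_zero])

lemma D_val : (o.D : Matrix (Fin 3) (Fin 3) F) = o.Dmat := rfl
lemma P_val : (o.P : Matrix (Fin 3) (Fin 3) F) = o.Pmat := rfl
lemma Z_val : (o.Z : Matrix (Fin 3) (Fin 3) F) = o.Zmat := rfl
lemma t_val : (o.t : Matrix (Fin 3) (Fin 3) F) = o.tmat := rfl
lemma W0_val : (o.W0 : Matrix (Fin 3) (Fin 3) F) = o.W0mat := rfl
lemma W1_val : (o.W1 : Matrix (Fin 3) (Fin 3) F) = o.W1mat := rfl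
lemma W2_val : (o.W2 : Matrix (Fin 3) (Fin 3) F) = o.W2mat := rfl
lemma E_val : (o.E : Matrix (Fin 3) (Fin 3) F) = o.Emat := rfl

lemma ap_D (x : Fin 3 → F) : ap o.D x = ![x 0, o.w * x 1, o.w ^ 2 * x 2] := by
  rw [ap_def, D_val]; funext i; fin_cases i <;> simp [Dmat, mulVec, dotProduct, Fin.sum_univ_three]

lemma ap_P (x : Fin 3 → F) : ap o.P x = ![x 2, x 0, x 1] := by
  rw [ap_def, P_val]; funext i; fin_cases i <;> simp [Pmat, mulVec, dotProduct, Fin.sum_univ_three]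

lemma ap_Z (x : Fin 3 → F) : ap o.Z x = o.w • x := by
  rw [ap_def, Z_val]; funext i; fin_cases i <;> simp [Zmat, mulVec, dotProduct, Fin.sum_univ_three]

lemma ap_t (x : Fin 3 → F) : ap o.t x = ![-x 0, -x 2, -x 1] := by
  rw [ap_def, t_val]; funext i; fin_cases i <;> simp [tmat, mulVec, dotProduct, Fin.sum_univ_three]

lemma ap_E (x : Fin 3 → F) : ap o.E x = ![o.w * x 0, x 1, x 2] := by
  rw [ap_def, E_val]; funext i; fin_cases i <;> simp [Emat, mulVec, dotProduct, Fin.sum_univ_three]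

/-! ### Relations -/

lemma Z_comm (g : GL (Fin 3) F) : g * o.Z = o.Z * g := gl_ext fun x => by
  rw [ap_mul, ap_mul, ap_Z, ap_smul, ap_Z]

lemma Z_cube : o.Z ^ 3 = 1 := gl_ext fun x => by
  rw [pow_three, ap_mul, ap_mul, ap_Z, ap_Z, ap_Z, smul_smul, smul_smul, ap_one,
    show o.w * o.w * o.w = 1 by linear_combination o.cube, one_smul]

lemma D_cube : o.D ^ 3 = 1 := gl_ext fun x => by
  rw [pow_three, ap_mul, ap_mul, ap_one]
  have := o.cube
  funext i; fin_cases i <;> simp [ap_D] <;> grind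

lemma P_cube : o.P ^ 3 = 1 := gl_ext fun x => by
  rw [pow_three, ap_mul, ap_mul, ap_one]
  funext i; fin_cases i <;> simp [ap_P]

lemma P_mul_D : o.P * o.D = o.Z * o.Z * o.D * o.P := gl_ext fun x => by
  have := o.cube
  simp only [ap_mul, ap_Z, smul_smul]
  funext i; fin_cases i <;> simp [ap_P, ap_D] <;> grind

lemma t_sq : o.t * o.t = 1 := gl_ext fun x => by
  rw [ap_mul, ap_one]
  funext i; fin_cases i <;> simp [ap_t]

lemma t_conj_D : o.t * o.D = o.Z ^ 0 * o.D * o.D * o.t := gl_ext fun x => by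
  have := o.cube
  rw [pow_zero, one_mul]
  simp only [ap_mul]
  funext i; fin_cases i <;> simp [ap_t, ap_D] <;> grind

lemma t_conj_P : o.t * o.P = o.P * o.P * o.t := gl_ext fun x => by
  simp only [ap_mul]
  funext i; fin_cases i <;> simp [ap_t, ap_P]

lemma E_comm_D : o.E * o.D = o.D * o.E := gl_ext fun x => by
  simp only [ap_mul]
  funext i; fin_cases i <;> simp [ap_E, ap_D]

lemma E_comm_t : o.E * o.t = o.t * o.E := gl_ext fun x => by
  simp only [ap_mul]
  funext i; fin_cases i <;> simp [ap_E, ap_t]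

lemma E_conj_P : o.E * o.P = o.Z * o.D * o.P * o.E := gl_ext fun x => by
  have := o.cube
  simp only [ap_mul, ap_Z]
  funext i; fin_cases i <;> simp [ap_E, ap_D, ap_P] <;> grind

lemma E_W0 : o.E * o.W0 = o.W1 * o.E := by
  have := o.cube
  refine Units.ext ?_
  rw [Units.val_mul, Units.val_mul, E_val, W0_val, W1_val]
  ext i j; fin_cases i <;> fin_cases j <;>
    simp [Emat, W0mat, W1mat, Matrix.mul_apply, Fin.sum_univ_three] <;> grind

lemma E_W1 : o.E * o.W1 = o.W2 * o.E := by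
  have := o.cube
  refine Units.ext ?_
  rw [Units.val_mul, Units.val_mul, E_val, W1_val, W2_val]
  ext i j; fin_cases i <;> fin_cases j <;>
    simp [Emat, W1mat, W2mat, Matrix.mul_apply, Fin.sum_univ_three] <;> grind

lemma W0_sq : o.W0 * o.W0 = o.t := by
  have h1 := o.δ_sq; have h2 := o.root
  refine Units.ext ?_
  rw [Units.val_mul, W0_val, t_val]
  ext i j; fin_cases i <;> fin_cases j <;>
    simp [W0mat, tmat, Matrix.mul_apply, Fin.sum_univ_three] <;> grind

lemma W0_D : o.W0 * o.D = o.P * o.P * o.W0 := by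
  have := o.cube
  refine Units.ext ?_
  rw [Units.val_mul, Units.val_mul, Units.val_mul, W0_val, D_val, P_val]
  ext i j; fin_cases i <;> fin_cases j <;>
    simp [W0mat, Dmat, Pmat, Matrix.mul_apply, Fin.sum_univ_three] <;> grind

lemma W0_P : o.W0 * o.P = o.D * o.W0 := by
  have := o.cube
  refine Units.ext ?_
  rw [Units.val_mul, Units.val_mul, W0_val, D_val, P_val]
  ext i j; fin_cases i <;> fin_cases j <;>
    simp [W0mat, Dmat, Pmat, Matrix.mul_apply, Fin.sum_univ_three] <;> grind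

lemma W0_W1 : o.W0 * o.W1 = o.t * (o.W1 * o.W0) := by
  have h1 := o.δ_sq; have h2 := o.root
  refine Units.ext ?_
  rw [Units.val_mul, Units.val_mul, Units.val_mul, W0_val, W1_val, t_val]
  ext i j; fin_cases i <;> fin_cases j <;>
    simp [W0mat, W1mat, tmat, Matrix.mul_apply, Fin.sum_univ_three] <;> grind

lemma W1_sq : o.W1 * o.W1 = o.t := by
  have h := o.E_W0
  have : o.W1 = o.E * o.W0 * o.E⁻¹ := eq_mul_inv_of_mul_eq h.symm
  rw [this, show o.E * o.W0 * o.E⁻¹ * (o.E * o.W0 * o.E⁻¹) = o.E * (o.W0 * o.W0) * o.E⁻¹ by group,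
    o.W0_sq, o.E_comm_t, mul_inv_cancel_right]

lemma W2_sq : o.W2 * o.W2 = o.t := by
  have h := o.E_W1
  have : o.W2 = o.E * o.W1 * o.E⁻¹ := eq_mul_inv_of_mul_eq h.symm
  rw [this, show o.E * o.W1 * o.E⁻¹ * (o.E * o.W1 * o.E⁻¹) = o.E * (o.W1 * o.W1) * o.E⁻¹ by group,
    o.W1_sq, o.E_comm_t, mul_inv_cancel_right]

lemma W1_ZDP : o.W1 * (o.Z * o.D * o.P) = o.D * o.W1 := by
  have hW : o.W1 = o.E * o.W0 * o.E⁻¹ := eq_mul_inv_of_mul_eq o.E_W0.symm
  have hP : o.Z * o.D * o.P = o.E * o.P * o.E⁻¹ := eq_mul_inv_of_mul_eq o.E_conj_P.symm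
  rw [hW, hP, show o.E * o.W0 * o.E⁻¹ * (o.E * o.P * o.E⁻¹) = o.E * (o.W0 * o.P) * o.E⁻¹ by group,
    o.W0_P, ← mul_assoc o.E, o.E_comm_D]
  group

lemma W2_ZZDDP : o.W2 * (o.Z * o.Z * o.D * o.D * o.P) = o.D * o.W2 := by
  have hW : o.W2 = o.E * o.W1 * o.E⁻¹ := eq_mul_inv_of_mul_eq o.E_W1.symm
  have hP : o.Z * o.Z * o.D * o.D * o.P = o.E * (o.Z * o.D * o.P) * o.E⁻¹ := by
    apply eq_mul_inv_of_mul_eq
    refine gl_ext fun x => ?_
    have := o.cube
    simp only [ap_mul, ap_Z]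
    funext i; fin_cases i <;> simp [ap_E, ap_D, ap_P] <;> grind
  rw [hW, hP, show o.E * o.W1 * o.E⁻¹ * (o.E * (o.Z * o.D * o.P) * o.E⁻¹)
    = o.E * (o.W1 * (o.Z * o.D * o.P)) * o.E⁻¹ by group,
    o.W1_ZDP, ← mul_assoc o.E, o.E_comm_D]
  group

end Omega

end CfsgLib.Geometric.SLThree
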