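import Cfsg.Agent.Lib.Geometric.SLThree.Frame

/-!
The extraspecial group generated by the frame, its normal form and diagonal elements.
-/

set_option autoImplicit false
set_option linter.unusedSectionVars false
set_option linter.style.haveILetI false

namespace CfsgLib.Geometric.SLThree

open Matrix

variable {F : Type*} [Field F]

/-- `g` is diagonal with entries `a`, `b`, `c`. -/
def IsDg (g : GL (Fin 3) F) (a b c : F) : Prop :=
  ∀ x, ap g x = ![a * x 0, b * x 1, c * x 2]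

namespace IsDg

variable {g h : GL (Fin 3) F} {a b c a' b' c' : F}

lemma mul (hg : IsDg g a b c) (hh : IsDg h a' b' c') : IsDg (g * h) (a * a') (b * b') (c * c') := by
  intro x
  rw [ap_mul, hg, hh]
  simp [mul_assoc]

lemma pow (hg : IsDg g a b c) : ∀ n : ℕ, IsDg (g ^ n) (a ^ n) (b ^ n) (c ^ n)
  | 0 => fun x => by funext i; fin_cases i <;> simp
  | n + 1 => by rw [pow_succ, pow_succ, pow_succ, pow_succ]; exact (hg.pow n).mul hg

lemma eq (hg : IsDg g a b c) (hh : IsDg h a b c) : g = h := gl_ext fun x => by rw [hg, hh]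

lemma ne_zero (hg : IsDg g a b c) : a ≠ 0 ∧ b ≠ 0 ∧ c ≠ 0 := by
  refine ⟨fun h => ap_ne_zero g (x := Pi.single 0 1) (by simp) ?_,
    fun h => ap_ne_zero g (x := Pi.single 1 1) (by simp) ?_,
    fun h => ap_ne_zero g (x := Pi.single 2 1) (by simp) ?_⟩ <;>
  · rw [hg]; funext i; fin_cases i <;> simp [h]

lemma unique (hg : IsDg g a b c) (hg' : IsDg g a' b' c') : a = a' ∧ b = b' ∧ c = c' := by
  have key := fun x => (hg x).symm.trans (hg' x)
  refine ⟨?_, ?_, ?_⟩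
  · simpa using congrFun (key (Pi.single 0 1)) 0
  · simpa using congrFun (key (Pi.single 1 1)) 1
  · simpa using congrFun (key (Pi.single 2 1)) 2

lemma inv (hg : IsDg g a b c) : IsDg g⁻¹ a⁻¹ b⁻¹ c⁻¹ := by
  intro x
  obtain ⟨h1, h2, h3⟩ := hg.ne_zero
  apply ap_injective g
  rw [ap_ap_inv, hg]
  funext i; fin_cases i <;> simp [h1, h2, h3]

lemma det (hg : IsDg g a b c) : (g : Matrix (Fin 3) (Fin 3) F).det = a * b * c := by
  have hM : (g : Matrix (Fin 3) (Fin 3) F) = Matrix.diagonal ![a, b, c] := by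
    refine Matrix.ext_of_mulVec_single fun j => ?_
    rw [← ap_def, hg]
    funext i; fin_cases i <;> fin_cases j <;> simp [Matrix.mulVec_diagonal]
  rw [hM, Matrix.det_diagonal, Fin.prod_univ_three]
  simp

lemma comm_diag (hg : IsDg g a b c) (hh : IsDg h a' b' c') : g * h = h * g := by
  have h1 := hg.mul hh
  have h2 := hh.mul hg
  rw [mul_comm a' a, mul_comm b' b, mul_comm c' c] at h2
  exact h1.eq h2

end IsDg

namespace Omega

variable (o : Omega F)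

lemma D_dg : IsDg o.D 1 o.w (o.w ^ 2) := fun x => by rw [ap_D, one_mul]

lemma Z_dg : IsDg o.Z o.w o.w o.w := fun x => by
  rw [ap_Z]; funext i; fin_cases i <;> simp

lemma ap_Pinv (x : Fin 3 → F) : ap o.P⁻¹ x = ![x 1, x 2, x 0] := by
  apply ap_injective o.P
  rw [ap_ap_inv, ap_P]
  funext i; fin_cases i <;> simp

lemma P_conj_dg {g : GL (Fin 3) F} {a b c : F} (hg : IsDg g a b c) :
    IsDg (o.P * g * o.P⁻¹) c a b := fun x => by
  rw [ap_mul, ap_mul, ap_Pinv, hg, ap_P]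
  funext i; fin_cases i <;> simp

lemma t_inv : o.t⁻¹ = o.t := inv_eq_of_mul_eq_one_right o.t_sq

lemma t_conj_dg {g : GL (Fin 3) F} {a b c : F} (hg : IsDg g a b c) :
    IsDg (o.t * g * o.t) a c b := fun x => by
  rw [ap_mul, ap_mul, ap_t, hg, ap_t]
  funext i; fin_cases i <;> simp

/-- The centraliser of `D` is diagonal. -/
lemma exists_dg {g : GL (Fin 3) F} (h : g * o.D = o.D * g) : ∃ a b c, IsDg g a b c := by
  refine ⟨(g : Matrix (Fin 3) (Fin 3) F) 0 0, (g : Matrix (Fin 3) (Fin 3) F) 1 1,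
    (g : Matrix (Fin 3) (Fin 3) F) 2 2, fun x => ?_⟩
  have hM := congrArg Units.val h
  rw [Units.val_mul, Units.val_mul, D_val] at hM
  have key : ∀ i j, (g : Matrix (Fin 3) (Fin 3) F) i j * (![1, o.w, o.w ^ 2] j - ![1, o.w, o.w ^ 2] i) = 0 := by
    intro i j
    have := congrFun (congrFun hM i) j
    fin_cases i <;> fin_cases j <;>
      simp [Dmat, Matrix.mul_apply, Fin.sum_univ_three, -mul_eq_zero] at this ⊢ <;> linear_combination this
  have h1 : o.w - 1 ≠ 0 := sub_ne_zero.mpr o.ne_one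
  have h2 : o.w ^ 2 - 1 ≠ 0 := sub_ne_zero.mpr o.sq_ne_one
  have h3 : o.w ^ 2 - o.w ≠ 0 := sub_ne_zero.mpr o.sq_ne
  have off : ∀ i j, i ≠ j → (g : Matrix (Fin 3) (Fin 3) F) i j = 0 := by
    intro i j hij
    refine (mul_eq_zero.mp (key i j)).resolve_right ?_
    fin_cases i <;> fin_cases j <;>
      simp [sub_eq_zero, o.ne_one, o.ne_one.symm, o.sq_ne_one, o.sq_ne_one.symm, o.sq_ne,
        o.sq_ne.symm] at hij ⊢
  rw [ap_def]
  funext i
  fin_cases i <;> simp [Matrix.mulVec, dotProduct, Fin.sum_univ_three, off]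

lemma Z_pow_comm (n : ℕ) (g : GL (Fin 3) F) : g * o.Z ^ n = o.Z ^ n * g :=
  (Commute.pow_right (o.Z_comm g) n).eq

lemma P_pow_D_pow : ∀ c b : ℕ, o.P ^ c * o.D ^ b = o.Z ^ (2 * c * b) * o.D ^ b * o.P ^ c := by
  have h1 : ∀ b : ℕ, o.P * o.D ^ b = o.Z ^ (2 * b) * o.D ^ b * o.P := by
    intro b
    induction b with
    | zero => simp
    | succ b ih =>
      rw [pow_succ, ← mul_assoc, ih, mul_assoc _ o.P, o.P_mul_D, show 2 * (b + 1) = 2 * b + 2 from rfl,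
        pow_add, sq]
      simp only [mul_assoc]
      congr 1
      rw [← mul_assoc (o.D ^ b), o.Z_comm, mul_assoc, ← mul_assoc (o.D ^ b), o.Z_comm]
      simp only [mul_assoc]
  intro c b
  induction c with
  | zero => simp
  | succ c ih =>
    rw [pow_succ, mul_assoc, h1, mul_assoc (o.Z ^ (2 * b)), ← mul_assoc (o.P ^ c), o.Z_pow_comm,
      mul_assoc, ← mul_assoc (o.P ^ c), ih, show 2 * (c + 1) * b = 2 * b + 2 * c * b by ring, pow_add]
    simp only [mul_assoc]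

/-- `Z ^ a D ^ b P ^ c`. -/
noncomputable def nf (a b c : ℕ) : GL (Fin 3) F := o.Z ^ a * o.D ^ b * o.P ^ c

lemma nf_mul (a b c a' b' c' : ℕ) :
    o.nf a b c * o.nf a' b' c' = o.nf (a + a' + 2 * c * b') (b + b') (c + c') := by
  simp only [nf]
  calc o.Z ^ a * o.D ^ b * o.P ^ c * (o.Z ^ a' * o.D ^ b' * o.P ^ c')
      = o.Z ^ a * o.D ^ b * (o.P ^ c * o.Z ^ a') * o.D ^ b' * o.P ^ c' := by simp only [mul_assoc]
    _ = o.Z ^ a * (o.D ^ b * o.Z ^ a') * (o.P ^ c * o.D ^ b') * o.P ^ c' := by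
        rw [o.Z_pow_comm]; simp only [mul_assoc]
    _ = o.Z ^ a * o.Z ^ a' * (o.D ^ b * o.Z ^ (2 * c * b')) * o.D ^ b' * o.P ^ c * o.P ^ c' := by
        rw [o.P_pow_D_pow, o.Z_pow_comm a']; simp only [mul_assoc]
    _ = _ := by rw [o.Z_pow_comm _ (o.D ^ b), pow_add, pow_add, pow_add, pow_add]; simp only [mul_assoc]

lemma nf_mod (a b c : ℕ) : o.nf a b c = o.nf (a % 3) (b % 3) (c % 3) := by
  rw [nf, nf, pow_eq_pow_mod a o.Z_cube, pow_eq_pow_mod b o.D_cube, pow_eq_pow_mod c o.P_cube]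

lemma nf_congr {a b c a' b' c' : ℕ} (ha : a % 3 = a' % 3) (hb : b % 3 = b' % 3) (hc : c % 3 = c' % 3) :
    o.nf a b c = o.nf a' b' c' := by rw [nf_mod, ha, hb, hc, ← nf_mod]

lemma nf_zero : o.nf 0 0 0 = 1 := by simp [nf]

/-- The group `⟨ω, D, P⟩`. -/
noncomputable def R : Subgroup (GL (Fin 3) F) where
  carrier := {g | ∃ a b c, g = o.nf a b c}
  one_mem' := ⟨0, 0, 0, o.nf_zero.symm⟩
  mul_mem' := by rintro _ _ ⟨a, b, c, rfl⟩ ⟨a', b', c', rfl⟩; exact ⟨_, _, _, o.nf_mul ..⟩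
  inv_mem' := by
    rintro _ ⟨a, b, c, rfl⟩
    refine ⟨2 * a + 2 * b * c, 2 * b, 2 * c, inv_eq_of_mul_eq_one_right ?_⟩
    rw [o.nf_mul, ← o.nf_zero]
    refine o.nf_congr ?_ ?_ ?_
    · rw [show a + (2 * a + 2 * b * c) + 2 * c * (2 * b) = 3 * (a + 2 * b * c) by ring]; simp
    · omega
    · omega

lemma D_eq : o.D = o.nf 0 1 0 := by simp [nf]
lemma P_eq : o.P = o.nf 0 0 1 := by simp [nf]
lemma Z_eq : o.Z = o.nf 1 0 0 := by simp [nf]

lemma D_mem : o.D ∈ o.R := ⟨_, _, _, o.D_eq⟩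
lemma P_mem : o.P ∈ o.R := ⟨_, _, _, o.P_eq⟩
lemma Z_mem : o.Z ∈ o.R := ⟨_, _, _, o.Z_eq⟩

lemma le_of_gens {S : Subgroup (GL (Fin 3) F)} (hD : o.D ∈ S) (hP : o.P ∈ S) : o.R ≤ S := by
  have hZ : o.Z ∈ S := by
    have : o.Z = o.D * o.P * (o.P * o.D)⁻¹ := by
      rw [eq_mul_inv_iff_mul_eq, o.P_mul_D, show o.Z * (o.Z * o.Z * o.D * o.P) = o.Z ^ 3 * (o.D * o.P)
        by simp only [pow_three, mul_assoc], o.Z_cube, one_mul]
    rw [this]; exact S.mul_mem (S.mul_mem hD hP) (S.inv_mem (S.mul_mem hP hD))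
  rintro _ ⟨a, b, c, rfl⟩
  exact S.mul_mem (S.mul_mem (S.pow_mem hZ a) (S.pow_mem hD b)) (S.pow_mem hP c)

lemma dg_nf (a b : ℕ) : IsDg (o.nf a b 0) (o.w ^ a) (o.w ^ (a + b)) (o.w ^ (a + 2 * b)) := by
  have h := (o.Z_dg.pow a).mul (o.D_dg.pow b)
  rw [one_pow, mul_one, ← pow_add, ← pow_mul, ← pow_add] at h
  simpa [nf] using h

lemma nf_split (a b c : ℕ) : o.nf a b c = o.nf a b 0 * o.P ^ c := by simp [nf]

/-- Permutation part of the normal form. -/
lemma ap_nf (a b c : ℕ) (x : Fin 3 → F) :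
    ap (o.nf a b c) x = ![o.w ^ a * ap (o.P ^ c) x 0, o.w ^ (a + b) * ap (o.P ^ c) x 1,
      o.w ^ (a + 2 * b) * ap (o.P ^ c) x 2] := by
  rw [nf_split, ap_mul, o.dg_nf a b]

lemma w_pow_eq_one {n : ℕ} (h : o.w ^ n = 1) : n % 3 = 0 := by
  rw [o.pow_mod] at h
  have := Nat.mod_lt n (show 0 < 3 by norm_num)
  interval_cases n % 3
  · rfl
  · exact absurd (by simpa using h) o.ne_one
  · exact absurd h o.sq_ne_one

lemma nf_eq_one {a b c : ℕ} (h : o.nf a b c = 1) : a % 3 = 0 ∧ b % 3 = 0 ∧ c % 3 = 0 := by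
  have hc : c % 3 = 0 := by
    by_contra hc
    rw [nf_mod] at h
    have h0 := congrFun (congrArg (fun g => ap g (Pi.single 0 1)) h) 0
    rw [ap_nf] at h0
    rcases (show c % 3 = 1 ∨ c % 3 = 2 by omega) with e | e <;> simp [e, ap_P, pow_two, ap_mul] at h0
  rw [o.nf_congr rfl rfl (show c % 3 = 0 % 3 by omega)] at h
  have h1 : IsDg (o.nf a b 0) 1 1 1 := by
    rw [h]; intro x; funext i; fin_cases i <;> simp
  obtain ⟨ha, hb, -⟩ := (o.dg_nf a b).unique h1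
  have := o.w_pow_eq_one ha
  have := o.w_pow_eq_one hb
  exact ⟨by assumption, by omega, hc⟩

lemma nf_inj {a b c a' b' c' : ℕ} (h : o.nf a b c = o.nf a' b' c') :
    a % 3 = a' % 3 ∧ b % 3 = b' % 3 ∧ c % 3 = c' % 3 := by
  have h1 := congrArg (fun g => g * o.nf (2 * a' + 2 * b' * c') (2 * b') (2 * c')) h
  simp only [o.nf_mul] at h1
  rw [show o.nf (a' + (2 * a' + 2 * b' * c') + 2 * c' * (2 * b')) (b' + 2 * b') (c' + 2 * c') = 1 by
    rw [← o.nf_zero]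
    refine o.nf_congr ?_ ?_ ?_
    · rw [show a' + (2 * a' + 2 * b' * c') + 2 * c' * (2 * b') = 3 * (a' + 2 * b' * c') by ring]; simp
    · omega
    · omega] at h1
  obtain ⟨e1, e2, e3⟩ := o.nf_eq_one h1
  have hb : b % 3 = b' % 3 := by omega
  have hc : c % 3 = c' % 3 := by omega
  refine ⟨?_, hb, hc⟩
  have e4 : (2 * c * (2 * b')) % 3 = (2 * c' * (2 * b')) % 3 :=
    (Nat.ModEq.mul_right _ (Nat.ModEq.mul_left 2 (show c ≡ c' [MOD 3] from hc)))
  have e5 : 2 * b' * c' + 2 * c' * (2 * b') = 3 * (2 * b' * c') := by ring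
  omega

lemma card_R : Nat.card o.R = 27 := by
  let f : Fin 3 × Fin 3 × Fin 3 → o.R := fun x => ⟨o.nf x.1 x.2.1 x.2.2, _, _, _, rfl⟩
  have hf : Function.Bijective f := by
    constructor
    · rintro ⟨a, b, c⟩ ⟨a', b', c'⟩ h
      obtain ⟨h1, h2, h3⟩ := o.nf_inj (congrArg Subtype.val h)
      simp only [Nat.mod_eq_of_lt a.2, Nat.mod_eq_of_lt a'.2, Nat.mod_eq_of_lt b.2,
        Nat.mod_eq_of_lt b'.2, Nat.mod_eq_of_lt c.2, Nat.mod_eq_of_lt c'.2] at h1 h2 h3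
      exact Prod.ext (Fin.ext h1) (Prod.ext (Fin.ext h2) (Fin.ext h3))
    · rintro ⟨_, a, b, c, rfl⟩
      exact ⟨(⟨a % 3, Nat.mod_lt _ (by norm_num)⟩, ⟨b % 3, Nat.mod_lt _ (by norm_num)⟩,
        ⟨c % 3, Nat.mod_lt _ (by norm_num)⟩), Subtype.ext (o.nf_mod a b c).symm⟩
  rw [← Nat.card_eq_of_bijective f hf]
  simp

/-- Diagonal elements with cube roots of unity and determinant one lie in `R`. -/
lemma dg_mem_R {g : GL (Fin 3) F} {a b c : F} (hg : IsDg g a b c) (ha : a ^ 3 = 1) (hb : b ^ 3 = 1)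
    (hd : a * b * c = 1) : g ∈ o.R := by
  have hroot : ∀ {x : F}, x ^ 3 = 1 → ∃ n : ℕ, x = o.w ^ n := fun hx => by
    rcases o.root_cases hx with h | h | h
    · exact ⟨0, by simp [h]⟩
    · exact ⟨1, by simp [h]⟩
    · exact ⟨2, h⟩
  obtain ⟨m, rfl⟩ := hroot ha
  obtain ⟨n, rfl⟩ := hroot hb
  refine ⟨m, n + 2 * m, 0, hg.eq ?_⟩
  have h := o.dg_nf m (n + 2 * m)
  have e1 : o.w ^ (m + (n + 2 * m)) = o.w ^ n := by rw [o.pow_mod, o.pow_mod n]; congr 1; omega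
  have e2 : o.w ^ (m + 2 * (n + 2 * m)) = c := by
    apply mul_left_cancel₀ (mul_ne_zero (pow_ne_zero m o.ne_zero) (pow_ne_zero n o.ne_zero))
    rw [hd, ← pow_add, ← pow_add, o.pow_mod,
      show (m + n + (m + 2 * (n + 2 * m))) % 3 = 0 by omega, pow_zero]
  rwa [e1, e2] at h

/-- A diagonal element conjugating `P` into `R` has ratios cube roots of unity. -/
lemma ratio_of_conj_P {g : GL (Fin 3) F} {a b c : F} (hg : IsDg g a b c)
    (h : g * o.P * g⁻¹ ∈ o.R) : b ^ 3 = a ^ 3 ∧ c ^ 3 = a ^ 3 := by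
  obtain ⟨i, j, k, hk⟩ := h
  obtain ⟨ha, hb, hc⟩ := hg.ne_zero
  rw [nf_mod] at hk
  have key : ∀ x, ap (g * o.P * g⁻¹) x = ![a * (c⁻¹ * x 2), b * (a⁻¹ * x 0), c * (b⁻¹ * x 1)] := fun x => by
    rw [ap_mul, ap_mul, hg.inv, ap_P, hg]; simp
  rw [hk] at key
  have cube : ∀ n, (o.w ^ n) ^ 3 = 1 := fun n => by rw [← pow_mul, mul_comm, pow_mul, o.cube, one_pow]
  rcases (show k % 3 = 0 ∨ k % 3 = 1 ∨ k % 3 = 2 by omega) with e | e | e
  · have h0 := congrFun (key (Pi.single 0 1)) 0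
    rw [ap_nf, e] at h0
    simp [o.ne_zero] at h0
  · have h0 := congrFun (key (Pi.single 2 1)) 0
    have h1 := congrFun (key (Pi.single 0 1)) 1
    rw [ap_nf, e] at h0 h1
    simp [ap_P] at h0 h1
    have e1 : b = o.w ^ (i % 3 + j % 3) * a := by rw [h1]; field_simp
    have e2 : a = o.w ^ (i % 3) * c := by rw [h0]; field_simp
    exact ⟨by rw [e1, mul_pow, cube, one_mul], by rw [e2, mul_pow, cube, one_mul]⟩
  · have h0 := congrFun (key (Pi.single 1 1)) 0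
    rw [ap_nf, e] at h0
    simp [pow_two, ap_mul, ap_P, o.ne_zero] at h0

/-- The element `Z ^ k D ^ k P`, conjugated to `D` by `W k`. -/
lemma conj_into_D {r : GL (Fin 3) F} (hr : r ∈ o.R) :
    ∃ W ∈ ({1, o.W0, o.W1, o.W2} : Set (GL (Fin 3) F)), ∃ i j, W * r * W⁻¹ = o.nf i j 0 := by
  obtain ⟨a, b, c, rfl⟩ := hr
  by_cases hc : c % 3 = 0
  · exact ⟨1, by simp, a, b, by rw [one_mul, inv_one, mul_one]; exact o.nf_congr rfl rfl (by omega)⟩
  -- the power of the preimage of `D`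
  have key : ∀ (W : GL (Fin 3) F) (i k : ℕ), W * o.nf i k 1 = o.D * W → b % 3 = k * c % 3 →
      ∃ i' j', W * o.nf a b c * W⁻¹ = o.nf i' j' 0 := by
    intro W i k hW hb
    have hp : ∀ n, ∃ m, o.nf i k 1 ^ n = o.nf m (k * n) n := by
      intro n
      induction n with
      | zero => exact ⟨0, by rw [pow_zero, mul_zero, nf_zero]⟩
      | succ n ih =>
        obtain ⟨m, hm⟩ := ih
        exact ⟨_, by rw [pow_succ, hm, o.nf_mul, mul_add, mul_one]⟩
    obtain ⟨m, hm⟩ := hp c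
    have e : o.nf a b c = o.Z ^ (a + 2 * m) * o.nf i k 1 ^ c := by
      rw [hm, show o.Z ^ (a + 2 * m) = o.nf (a + 2 * m) 0 0 by simp [nf], o.nf_mul]
      exact o.nf_congr (by omega) (by omega) (by omega)
    refine ⟨a + 2 * m, c, ?_⟩
    have hWn : W * o.nf i k 1 * W⁻¹ = o.D := by rw [hW, mul_inv_cancel_right]
    rw [e, ← mul_assoc W, o.Z_pow_comm, mul_assoc, mul_assoc, ← mul_assoc W, ← conj_pow, hWn]
    simp [nf]
  rcases (show (b * c) % 3 = 0 ∨ (b * c) % 3 = 1 ∨ (b * c) % 3 = 2 by omega) with e | e | e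
  · refine ⟨o.W0, by simp, key o.W0 0 0 (by rw [← P_eq]; exact o.W0_P) ?_⟩
    rcases (show c % 3 = 1 ∨ c % 3 = 2 by omega) with h | h <;>
      rw [Nat.mul_mod, h] at e <;> omega
  · refine ⟨o.W1, by simp, key o.W1 1 1 (by simpa [nf] using o.W1_ZDP) ?_⟩
    rcases (show c % 3 = 1 ∨ c % 3 = 2 by omega) with h | h <;>
      rw [Nat.mul_mod, h] at e <;> omega
  · refine ⟨o.W2, by simp, key o.W2 2 2 (by simpa [nf, pow_two, mul_assoc] using o.W2_ZZDDP) ?_⟩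
    rcases (show c % 3 = 1 ∨ c % 3 = 2 by omega) with h | h <;>
      rw [Nat.mul_mod, h] at e <;> omega

/-- An element conjugating the generators into `R` normalises it. -/
lemma mem_normalizer_of_gens [Finite F] {g : GL (Fin 3) F} (hD : g * o.D * g⁻¹ ∈ o.R)
    (hP : g * o.P * g⁻¹ ∈ o.R) : g ∈ Cfsg.Geo.subgroupNormalizer o.R := by
  let S : Subgroup (GL (Fin 3) F) := o.R.comap (MulAut.conj g).toMonoidHom
  have hle : o.R ≤ S := o.le_of_gens hD hP
  have he : o.R.map (MulAut.conj g).toMonoidHom = o.R := by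
    refine Subgroup.eq_of_le_of_card_ge (Subgroup.map_le_iff_le_comap.mpr hle) ?_
    rw [Subgroup.card_map_of_injective (MulAut.conj g).injective]
  rw [Cfsg.Geo.subgroupNormalizer, Subgroup.mem_normalizer_iff]
  intro h
  constructor
  · intro hh; exact hle hh
  · intro hh
    rw [← he] at hh
    obtain ⟨y, hy, hye⟩ := hh
    have : y = h := mul_left_cancel (mul_right_cancel hye)
    exact this ▸ hy

lemma W0_norm [Finite F] : o.W0 ∈ Cfsg.Geo.subgroupNormalizer o.R := by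
  refine o.mem_normalizer_of_gens ?_ ?_
  · rw [o.W0_D, mul_inv_cancel_right]; exact mul_mem o.P_mem o.P_mem
  · rw [o.W0_P, mul_inv_cancel_right]; exact o.D_mem

lemma t_conj_mem {r : GL (Fin 3) F} (hr : r ∈ o.R) : o.t * r * o.t⁻¹ ∈ o.R := by
  have hD : o.t * o.D * o.t⁻¹ ∈ o.R := by
    rw [o.t_conj_D, mul_inv_cancel_right]
    exact mul_mem (mul_mem (pow_mem o.Z_mem 0) o.D_mem) o.D_mem
  have hP : o.t * o.P * o.t⁻¹ ∈ o.R := by
    rw [o.t_conj_P, mul_inv_cancel_right]; exact mul_mem o.P_mem o.P_mem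
  exact o.le_of_gens (S := o.R.comap (MulAut.conj o.t).toMonoidHom) hD hP hr

lemma norm_of_sq [Finite F] {W S : GL (Fin 3) F} (h2 : W * W = o.t) {k : ℕ}
    (hS : W * S = o.D * W) (hSR : S ∈ o.R) (hSk : S = o.Z ^ k * o.D ^ k * o.P) :
    W ∈ Cfsg.Geo.subgroupNormalizer o.R := by
  have hD : W * o.D * W⁻¹ ∈ o.R := by
    have : W * o.D * W⁻¹ = o.t * S * o.t⁻¹ := by
      rw [← h2, show o.D = W * S * W⁻¹ by rw [hS, mul_inv_cancel_right]]
      group
    rw [this]; exact o.t_conj_mem hSR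
  refine o.mem_normalizer_of_gens hD ?_
  have hz : ∀ n, W * o.Z ^ n * W⁻¹ = o.Z ^ n := fun n => by
    rw [o.Z_pow_comm, mul_inv_cancel_right]
  have : W * o.P * W⁻¹ = (W * o.D ^ k * W⁻¹)⁻¹ * ((W * o.Z ^ k * W⁻¹)⁻¹ * (W * S * W⁻¹)) := by
    rw [hSk]; group
  rw [this, hz, hS, mul_inv_cancel_right, ← conj_pow]
  exact mul_mem (inv_mem (pow_mem hD _)) (mul_mem (inv_mem (pow_mem o.Z_mem _)) o.D_mem)

lemma W1_norm [Finite F] : o.W1 ∈ Cfsg.Geo.subgroupNormalizer o.R :=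
  o.norm_of_sq o.W1_sq o.W1_ZDP (mul_mem (mul_mem o.Z_mem o.D_mem) o.P_mem) (k := 1) (by simp)

lemma W2_norm [Finite F] : o.W2 ∈ Cfsg.Geo.subgroupNormalizer o.R :=
  o.norm_of_sq o.W2_sq o.W2_ZZDDP
    (mul_mem (mul_mem (mul_mem (mul_mem o.Z_mem o.Z_mem) o.D_mem) o.D_mem) o.P_mem) (k := 2)
    (by simp [pow_two, mul_assoc])

end Omega

end CfsgLib.Geometric.SLThree
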