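import Cfsg.Agent.Lib.Geometric.Centres

/-!
Involutions with a single fixed point in the three-dimensional special linear group: in a subgroup
without transvections the centre and the axis determine each other, and incidence is symmetric.
-/

namespace CfsgLib.Geometric.SLThree

open Matrix

variable {F : Type*} [Field F]

/-- Products of transvections with the same axis. -/
lemma tv_mul_tv_axis {v w : Fin 3 → F} {φ : (Fin 3 → F) →ₗ[F] F} (hv : φ v = 0) (hw : φ w = 0) :
    tv v φ hv * tv w φ hw = tv (v + w) φ (by rw [map_add, hv, hw, add_zero]) := by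
  apply gl_ext
  intro x
  simp only [ap_mul, ap_tv, map_add, map_smul, smul_eq_mul, hw, mul_zero, add_zero]
  module

/-- The commutator of two transvections when the axis of the first contains the second centre. -/
lemma tv_comm_mem {H : Subgroup (GL (Fin 3) F)} {v w : Fin 3 → F}
    {φ ψ : (Fin 3 → F) →ₗ[F] F} {hv : φ v = 0} {hw : ψ w = 0} (h1 : tv v φ hv ∈ H)
    (h2 : tv w ψ hw ∈ H) (h : φ w = 0) : tv w ((-ψ v) • φ) (by simp [h]) ∈ H := by
  have h3 := mul_mem (mul_mem (mul_mem h1 h2) (inv_mem h1)) (inv_mem h2)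
  convert h3 using 1
  apply gl_ext
  intro x
  simp only [tv_inv, ap_mul, ap_tv, map_add, map_smul, LinearMap.neg_apply, LinearMap.smul_apply,
    smul_eq_mul, hv, hw, h, mul_zero, add_zero, neg_zero]
  module

/-- The involution fixing `c` and negating the kernel of `φ`, for `φ c = 1`. -/
noncomputable def homo (c : Fin 3 → F) (φ : (Fin 3 → F) →ₗ[F] F) (h : φ c = 1) : GL (Fin 3) F :=
  ofEquiv (LinearEquiv.ofInvolutive (-LinearMap.id + ((2 : F) • φ).smulRight c) fun x => by
    simp only [LinearMap.add_apply, LinearMap.neg_apply, LinearMap.id_apply,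
      LinearMap.smulRight_apply, LinearMap.smul_apply, map_add, map_neg, map_smul, smul_eq_mul, h]
    module)

@[simp] lemma ap_homo (c : Fin 3 → F) (φ : (Fin 3 → F) →ₗ[F] F) (h : φ c = 1) (x : Fin 3 → F) :
    ap (homo c φ h) x = (2 * φ x) • c - x := by
  rw [homo, ap_ofEquiv]
  change -x + (2 * φ x) • c = _
  abel

lemma homo_eq_homo {c d : Fin 3 → F} {φ ψ : (Fin 3 → F) →ₗ[F] F} (h : φ c = 1) (h' : ψ d = 1)
    (he : ∀ x, φ x • c = ψ x • d) : homo c φ h = homo d ψ h' := by
  apply gl_ext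
  intro x
  rw [ap_homo, ap_homo, mul_smul, mul_smul, he]

lemma homo_inv (c : Fin 3 → F) (φ : (Fin 3 → F) →ₗ[F] F) (h : φ c = 1) :
    (homo c φ h)⁻¹ = homo c φ h := by
  apply inv_eq_of_mul_eq_one_right
  apply gl_ext
  intro x
  simp only [ap_mul, ap_homo, ap_one, map_sub, map_smul, smul_eq_mul, h]
  module

lemma homo_mem_specialLinear (c : Fin 3 → F) (φ : (Fin 3 → F) →ₗ[F] F) (h : φ c = 1) :
    homo c φ h ∈ Cfsg.Geo.specialLinear (Fin 3) F := by
  let r : GL (Fin 3) F := -homo c φ h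
  have hr : ∀ x, ap r x = x + ((-2 : F) • φ) x • c := by
    intro x
    rw [ap_def, Units.val_neg, Matrix.neg_mulVec, ← ap_def, ap_homo, LinearMap.smul_apply,
      smul_eq_mul]
    module
  have h1 := det_of_ap r c ((-2 : F) • φ) hr
  rw [Units.val_neg, Matrix.det_neg, Fintype.card_fin, LinearMap.smul_apply, h,
    smul_eq_mul] at h1
  rw [mem_specialLinear_iff]
  linear_combination -h1

lemma conj_homo (g : GL (Fin 3) F) (c : Fin 3 → F) (φ : (Fin 3 → F) →ₗ[F] F) (h : φ c = 1) :
    g * homo c φ h * g⁻¹ =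
      homo (ap g c) (φ.comp (apEquiv g⁻¹).toLinearMap) (by simp [ap_inv_ap, h]) := by
  apply gl_ext
  intro x
  simp [ap_mul, ap_sub, ap_smul, ap_ap_inv]

/-- No non-trivial transvection lies in `H`. -/
def NoTv (H : Subgroup (GL (Fin 3) F)) : Prop :=
  ∀ (v : Fin 3 → F) (φ : (Fin 3 → F) →ₗ[F] F) (h : φ v = 0), tv v φ h ∈ H → v = 0 ∨ φ = 0

variable {H : Subgroup (GL (Fin 3) F)} (hH : NoTv H) (h2 : (2 : F) ≠ 0)
include hH h2

/-- The centre determines the axis. -/
lemma NoTv.axis_eq {c : Fin 3 → F} {φ ψ : (Fin 3 → F) →ₗ[F] F} {h : φ c = 1} {h' : ψ c = 1}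
    (h1 : homo c φ h ∈ H) (h3 : homo c ψ h' ∈ H) : φ = ψ := by
  have h0 : ((2 : F) • (φ - ψ)) c = 0 := by simp [h, h']
  have hm : tv c ((2 : F) • (φ - ψ)) h0 ∈ H := by
    convert mul_mem h3 h1 using 1
    apply gl_ext
    intro x
    simp only [ap_mul, ap_tv, ap_homo, map_sub, map_smul, LinearMap.smul_apply,
      LinearMap.sub_apply, smul_eq_mul, h']
    module
  rcases hH _ _ _ hm with hc | hc
  · simp [hc] at h
  · exact sub_eq_zero.mp ((smul_eq_zero.mp hc).resolve_left h2)

/-- The axis determines the centre. -/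
lemma NoTv.centre_eq {c d : Fin 3 → F} {φ : (Fin 3 → F) →ₗ[F] F} {h : φ c = 1} {h' : φ d = 1}
    (h1 : homo c φ h ∈ H) (h3 : homo d φ h' ∈ H) : c = d := by
  have h0 : ((2 : F) • φ) (c - d) = 0 := by simp [h, h']
  have hm : tv (c - d) ((2 : F) • φ) h0 ∈ H := by
    convert mul_mem h1 h3 using 1
    apply gl_ext
    intro x
    simp only [ap_mul, ap_tv, ap_homo, map_sub, map_smul, LinearMap.smul_apply,
      smul_eq_mul, h']
    module
  rcases hH _ _ _ hm with hc | hc
  · exact sub_eq_zero.mp hc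
  · rw [(smul_eq_zero.mp hc).resolve_left h2] at h
    simp at h

/-- Incidence is symmetric. -/
lemma NoTv.incidence {c d : Fin 3 → F} {φ ψ : (Fin 3 → F) →ₗ[F] F} {h : φ c = 1} {h' : ψ d = 1}
    (h1 : homo c φ h ∈ H) (h3 : homo d ψ h' ∈ H) (hd : φ d = 0) : ψ c = 0 := by
  set χ : (Fin 3 → F) →ₗ[F] F := -ψ.comp (apEquiv (homo c φ h)⁻¹).toLinearMap with hχ
  have hχd : χ d = 1 := by simp [hχ, homo_inv, hd, h']
  have hm : homo d χ hχd ∈ H := by
    have := mul_mem (mul_mem h1 h3) (inv_mem h1)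
    rw [conj_homo] at this
    convert this using 1
    refine homo_eq_homo _ _ fun x => ?_
    simp [hχ, homo_inv, hd]
    module
  have he := LinearMap.congr_fun (hH.axis_eq h2 hm h3) c
  simp [hχ, homo_inv, h] at he
  exact he.resolve_left h2

end CfsgLib.Geometric.SLThree
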