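import Cfsg.Agent.Lib.Geometric.SLThree.Klein

/-!
A finite linear group of order prime to the characteristic on a plane over an algebraically closed
field, acting on the eigenlines of its non-scalar elements.
-/

set_option autoImplicit false
set_option linter.unusedSectionVars false
set_option linter.style.haveILetI false

namespace CfsgLib.Geometric.SLThree

open MulAction

variable {K V G : Type*} [Field K] [AddCommGroup V] [Module K V] [Group G] [Finite G]

/-- A representation of `G` on a plane, of order prime to the characteristic. -/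
structure PlaneRep (ρ : G →* (V ≃ₗ[K] V)) : Prop where
  finrank : Module.finrank K V = 2
  prime_to : (Nat.card G : K) ≠ 0

variable (ρ : G →* (V ≃ₗ[K] V))

/-- `ρ g` is a scalar. -/
def IsSc (g : G) : Prop := ∃ c : K, ∀ x, ρ g x = c • x

/-- `v` spans a line fixed by `ρ g`. -/
def IsEig (g : G) (v : V) : Prop := ∃ c : K, ρ g v = c • v

namespace PlaneRep

variable {ρ} (hρ : PlaneRep ρ)
include hρ

lemma finiteDim : FiniteDimensional K V :=
  Module.finite_of_finrank_eq_succ (n := 1) hρ.finrank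

omit hρ in
lemma rho_one (x : V) : ρ 1 x = x := by rw [map_one]; rfl

omit hρ in
lemma rho_mul (g h : G) (x : V) : ρ (g * h) x = ρ g (ρ h x) := by rw [map_mul]; rfl

omit hρ in
lemma rho_inv_apply (g : G) (x : V) : ρ g⁻¹ (ρ g x) = x := by
  rw [← rho_mul, inv_mul_cancel, rho_one]

lemma orderOf_ne_zero (g : G) : (orderOf g : K) ≠ 0 := by
  intro h
  obtain ⟨d, hd⟩ := orderOf_dvd_natCard g
  exact hρ.prime_to (by rw [hd, Nat.cast_mul, h, zero_mul])

omit hρ in
lemma pow_apply_unipotent (g : G) {a c : K} {v u : V} (hv : ρ g v = a • v)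
    (hu : ρ g u = c • v + a • u) : ∀ n : ℕ, ρ (g ^ (n + 1)) u
      = (((n + 1 : ℕ) : K) * a ^ n * c) • v + a ^ (n + 1) • u
  | 0 => by simp [hu]
  | n + 1 => by
    rw [pow_succ, rho_mul, hu, map_add, map_smul, map_smul,
      pow_apply_unipotent g hv hu n]
    have hp : ∀ m : ℕ, ρ (g ^ m) v = a ^ m • v := by
      intro m
      induction m with
      | zero => simp [rho_one]
      | succ m ih => rw [pow_succ, rho_mul, hv, map_smul, ih, smul_smul, pow_succ']
    rw [hp, smul_add, smul_smul, smul_smul, smul_smul, ← add_assoc, ← add_smul]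
    push_cast
    congr 2 <;> ring

lemma eig_ne_zero {g : G} {v : V} (hv0 : v ≠ 0) {a : K} (hv : ρ g v = a • v) : a ≠ 0 := by
  rintro rfl
  rw [zero_smul, ← map_zero (ρ g)] at hv
  exact hv0 ((ρ g).injective hv)

omit hρ in
lemma mem_span_pair_of {v u : V} (hspan : Submodule.span K {v, u} = ⊤) (x : V) :
    ∃ r s : K, r • v + s • u = x :=
  Submodule.mem_span_pair.mp (hspan ▸ Submodule.mem_top)

lemma span_pair_top {v u : V} (hli : LinearIndependent K ![v, u]) :
    Submodule.span K {v, u} = ⊤ := by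
  haveI := hρ.finiteDim
  have := hli.span_eq_top_of_card_eq_finrank (by rw [Fintype.card_fin, hρ.finrank])
  simpa [Set.pair_comm] using this

/-- Every element is diagonalisable. -/
lemma exists_eigenbasis [IsAlgClosed K] (g : G) : ∃ (v w : V) (a b : K),
    LinearIndependent K ![v, w] ∧ ρ g v = a • v ∧ ρ g w = b • w := by
  haveI := hρ.finiteDim
  haveI : Nontrivial V := Module.nontrivial_of_finrank_pos (R := K) (by rw [hρ.finrank]; norm_num)
  obtain ⟨a, ha⟩ := Module.End.exists_eigenvalue (ρ g).toLinearMap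
  obtain ⟨v, hv⟩ := ha.exists_hasEigenvector
  have hve : ρ g v = a • v := hv.apply_eq_smul
  obtain ⟨u, hu⟩ : ∃ u, u ∉ Submodule.span K {v} := by
    by_contra hc
    push Not at hc
    have : Module.finrank K V ≤ 1 := by
      have e : Submodule.span K {v} = ⊤ := eq_top_iff.mpr fun x _ => hc x
      rw [← finrank_top, ← finrank_span_singleton (K := K) hv.2, e]
    have := hρ.finrank
    omega
  have hli : LinearIndependent K ![v, u] := by
    rw [LinearIndependent.pair_iff' hv.2]
    exact fun t ht => hu (Submodule.mem_span_singleton.mpr ⟨t, ht⟩)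
  obtain ⟨c, b, hcb⟩ := mem_span_pair_of (hρ.span_pair_top hli) (ρ g u)
  by_cases hab : b = a
  · subst hab
    have hn := hρ.orderOf_ne_zero g
    obtain ⟨n, hn'⟩ : ∃ n, orderOf g = n + 1 :=
      ⟨orderOf g - 1, by have := orderOf_pos g; omega⟩
    have h1 := pow_apply_unipotent g hve hcb.symm n
    rw [← hn', pow_orderOf_eq_one, rho_one] at h1
    have h2 : ((((orderOf g : ℕ) : K) * b ^ n * c) • v + (b ^ orderOf g - 1) • u) = 0 := by
      rw [sub_smul, one_smul, ← add_sub_assoc, ← h1, sub_self]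
    have hc : c = 0 := by
      have := (LinearIndependent.pair_iff.mp hli _ _ h2).1
      simpa [hn, hρ.eig_ne_zero hv.2 hve] using this
    subst hc
    exact ⟨v, u, b, b, hli, hve, by simpa using hcb.symm⟩
  · have hba : b - a ≠ 0 := sub_ne_zero.mpr hab
    refine ⟨v, u + (c / (b - a)) • v, a, b, ?_, hve, ?_⟩
    · rw [LinearIndependent.pair_iff' hv.2]
      intro t ht
      apply hu
      refine Submodule.mem_span_singleton.mpr ⟨t - c / (b - a), ?_⟩
      rw [sub_smul, ht]; abel
    · rw [map_add, map_smul, hve, ← hcb, smul_add, smul_smul, smul_smul, add_comm (c • v), add_assoc,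
        ← add_smul]
      congr 2
      field_simp
      ring

/-- The invariant lines of a non-scalar element: exactly two. -/
lemma eig_pair [IsAlgClosed K] {g : G} (hg : ¬ IsSc ρ g) : ∃ v w : V,
    LinearIndependent K ![v, w] ∧ IsEig ρ g v ∧ IsEig ρ g w ∧
      ∀ x, IsEig ρ g x → (∃ t : K, x = t • v) ∨ (∃ t : K, x = t • w) := by
  obtain ⟨v, w, a, b, hli, hv, hw⟩ := hρ.exists_eigenbasis g
  have hab : a ≠ b := by
    rintro rfl
    refine hg ⟨a, fun x => ?_⟩
    obtain ⟨r, s, rfl⟩ := mem_span_pair_of (hρ.span_pair_top hli) x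
    rw [map_add, map_smul, map_smul, hv, hw, smul_comm r, smul_comm s, ← smul_add]
  refine ⟨v, w, hli, ⟨a, hv⟩, ⟨b, hw⟩, fun x ⟨c, hc⟩ => ?_⟩
  obtain ⟨r, s, rfl⟩ := mem_span_pair_of (hρ.span_pair_top hli) x
  have h0 : (r * a - c * r) • v + (s * b - c * s) • w = 0 := by
    rw [map_add, map_smul, map_smul, hv, hw, smul_add, smul_smul, smul_smul, smul_smul,
      smul_smul] at hc
    rw [sub_smul, sub_smul, sub_add_sub_comm, hc, sub_self]
  obtain ⟨h1, h2⟩ := LinearIndependent.pair_iff.mp hli _ _ h0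
  by_cases hr : r = 0
  · exact Or.inr ⟨s, by simp [hr]⟩
  · left
    have hca : c = a := by
      apply mul_left_cancel₀ hr
      linear_combination -h1
    subst hca
    refine ⟨r, ?_⟩
    have : s * (b - c) = 0 := by linear_combination h2
    rcases mul_eq_zero.mp this with h | h
    · simp [h]
    · exact absurd (sub_eq_zero.mp h).symm hab

/-- A scalar element fixes every line. -/
lemma isEig_of_isSc {g : G} (hg : IsSc ρ g) (v : V) : IsEig ρ g v :=
  let ⟨c, hc⟩ := hg; ⟨c, hc v⟩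

omit hρ in
lemma isEig_smul {g : G} {v : V} (hv : IsEig ρ g v) (t : K) : IsEig ρ g (t • v) :=
  let ⟨c, hc⟩ := hv; ⟨c, by rw [map_smul, hc, smul_comm]⟩

omit hρ in
lemma isSc_one : IsSc ρ (1 : G) := ⟨1, fun x => by rw [rho_one, one_smul]⟩

/-- Two elements with a common invariant line and the same square class `-1` of eigenvalue ratio
agree modulo scalars. -/
lemma isSc_of_involutions [IsAlgClosed K] {g h : G} {v : V} (hv : v ≠ 0)
    (hgv : IsEig ρ g v) (hhv : IsEig ρ h v) (hg : ¬ IsSc ρ g) (hh : ¬ IsSc ρ h)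
    (hg2 : IsSc ρ (g * g)) (hh2 : IsSc ρ (h * h)) : IsSc ρ (g⁻¹ * h) := by
  haveI := hρ.finiteDim
  obtain ⟨v1, w, hli, hv1, hw, huniq⟩ := hρ.eig_pair hg
  -- `v` is one of the two lines; call the other one `w`
  obtain ⟨w, hli, a, b, hgva, hgwb⟩ : ∃ w, LinearIndependent K ![v, w] ∧ ∃ a b : K,
      ρ g v = a • v ∧ ρ g w = b • w := by
    obtain ⟨a, ha⟩ := hgv
    obtain ⟨a1, ha1⟩ := hv1
    obtain ⟨b, hb⟩ := hw
    rcases huniq v ⟨a, ha⟩ with ⟨t, rfl⟩ | ⟨t, rfl⟩
    · refine ⟨w, ?_, a, b, ha, hb⟩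
      rw [LinearIndependent.pair_iff' hv]
      intro s hs
      exact (LinearIndependent.pair_iff' (fun e => hv (by rw [e, smul_zero]))).mp hli (s * t)
        (by rw [mul_smul, hs])
    · refine ⟨v1, ?_, a, a1, ha, ha1⟩
      rw [LinearIndependent.pair_iff' hv]
      intro s hs
      have hli' := LinearIndependent.pair_iff.mp hli 1 (-(s * t)) (by
        rw [one_smul, neg_smul, mul_smul, hs, add_neg_cancel])
      exact one_ne_zero hli'.1
  obtain ⟨a', ha'⟩ := hhv
  obtain ⟨c, b', hcb⟩ := mem_span_pair_of (hρ.span_pair_top hli) (ρ h w)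
  obtain ⟨σ, hσ⟩ := hg2
  obtain ⟨τ, hτ⟩ := hh2
  have cmp : ∀ {r s r' s' : K}, r • v + s • w = r' • v + s' • w → r = r' ∧ s = s' := by
    intro r s r' s' e
    have := LinearIndependent.pair_iff.mp hli (r - r') (s - s') (by
      rw [sub_smul, sub_smul, sub_add_sub_comm, e, sub_self])
    exact ⟨sub_eq_zero.mp this.1, sub_eq_zero.mp this.2⟩
  have hab : a ≠ b := by
    intro e
    refine hg ⟨a, fun x => ?_⟩
    obtain ⟨r, s, rfl⟩ := mem_span_pair_of (hρ.span_pair_top hli) x
    rw [map_add, map_smul, map_smul, hgva, hgwb, e, smul_comm r, smul_comm s, ← smul_add]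
  have hab' : b = -a := by
    have e1 := hσ v
    have e2 := hσ w
    rw [rho_mul, hgva, map_smul, hgva, smul_smul] at e1
    rw [rho_mul, hgwb, map_smul, hgwb, smul_smul] at e2
    have h1 := smul_left_injective K hv e1
    have hw0 : w ≠ 0 := (hli.ne_zero 1 : _)
    have h2 := smul_left_injective K hw0 e2
    rcases mul_self_eq_mul_self_iff.mp (h2.trans h1.symm) with e | e
    · exact absurd e.symm hab
    · exact e
  have e3 := hτ v
  have e4 := hτ w
  rw [rho_mul, ha', map_smul, ha', smul_smul] at e3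
  rw [rho_mul, ← hcb, map_add, map_smul, map_smul, ha', ← hcb, smul_add, smul_smul, smul_smul,
    smul_smul, ← add_assoc, ← add_smul] at e4
  have h3 := smul_left_injective K hv e3
  obtain ⟨h4, h5⟩ := cmp (e4.trans (by rw [zero_smul, zero_add] : τ • w = (0 : K) • v + τ • w))
  have ha0 : a' ≠ 0 := hρ.eig_ne_zero hv ha'
  have hb' : b' = -a' := by
    rcases mul_self_eq_mul_self_iff.mp (h5.trans h3.symm) with e | e
    · exfalso
      -- then `h` would be unipotent times a scalar, hence a scalar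
      subst e
      obtain ⟨n, hn'⟩ : ∃ n, orderOf h = n + 1 :=
        ⟨orderOf h - 1, by have := orderOf_pos h; omega⟩
      have h1 := pow_apply_unipotent h ha' hcb.symm n
      rw [← hn', pow_orderOf_eq_one, rho_one] at h1
      have := (cmp (((zero_smul K v).symm ▸ (zero_add w).symm.trans (by rw [one_smul]) :
        w = (0 : K) • v + (1 : K) • w).symm.trans h1)).1
      have hc : c = 0 := by simpa [hρ.orderOf_ne_zero h, ha0] using this.symm
      refine hh ⟨b', fun x => ?_⟩
      obtain ⟨r, s, rfl⟩ := mem_span_pair_of (hρ.span_pair_top hli) x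
      rw [map_add, map_smul, map_smul, ha', ← hcb, hc, zero_smul, zero_add, smul_comm r,
        smul_comm s, ← smul_add]
    · exact e
  have ha : a ≠ 0 := hρ.eig_ne_zero hv hgva
  set k := g⁻¹ * h with hk
  have hginv : ∀ x (r : K), r ≠ 0 → ρ g x = r • x → ρ g⁻¹ x = r⁻¹ • x := by
    intro x r hr hx
    have h0 := congrArg (fun z => r⁻¹ • ρ g⁻¹ z) hx
    simp only [rho_inv_apply, map_smul, smul_smul, inv_mul_cancel₀ hr, one_smul] at h0
    exact h0.symm
  have hkv : ρ k v = (a' / a) • v := by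
    rw [hk, rho_mul, ha', map_smul, hginv v a ha hgva, smul_smul, div_eq_mul_inv]
  have hkw : ρ k w = (c / a) • v + (a' / a) • w := by
    rw [hk, rho_mul, ← hcb, map_add, map_smul, map_smul, hginv v a ha hgva,
      hginv w b (by rw [hab']; exact neg_ne_zero.mpr ha) hgwb, smul_smul, smul_smul, hab', hb']
    congr 2 <;> field_simp
  obtain ⟨n, hn'⟩ : ∃ n, orderOf k = n + 1 := ⟨orderOf k - 1, by have := orderOf_pos k; omega⟩
  have h1 := pow_apply_unipotent k hkv hkw n
  rw [← hn', pow_orderOf_eq_one, rho_one] at h1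
  have h2 := (cmp ((show (0 : K) • v + (1 : K) • w = w by simp).trans h1)).1
  have hc : c = 0 := by
    have : a' / a ≠ 0 := div_ne_zero ha0 ha
    simpa [hρ.orderOf_ne_zero k, this, ha] using h2.symm
  refine ⟨a' / a, fun x => ?_⟩
  obtain ⟨r, s, rfl⟩ := mem_span_pair_of (hρ.span_pair_top hli) x
  rw [map_add, map_smul, map_smul, hkv, hkw, hc, zero_div, zero_smul, zero_add, smul_comm r,
    smul_comm s, ← smul_add]

end PlaneRep

/-- The lines invariant under some non-scalar element. -/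
def Pts : Type _ :=
  {l : Submodule K V // ∃ g v, ¬ IsSc ρ g ∧ v ≠ 0 ∧ IsEig ρ g v ∧ l = Submodule.span K {v}}

lemma span_map_rho (g : G) (v : V) :
    (Submodule.span K {v}).map (ρ g).toLinearMap = Submodule.span K {ρ g v} := by
  rw [Submodule.map_span, Set.image_singleton]; rfl

instance : MulAction G (Pts ρ) where
  smul g l := ⟨l.1.map (ρ g).toLinearMap, by
    obtain ⟨h, v, hh, hv0, ⟨c, hc⟩, hl⟩ := l.2
    refine ⟨g * h * g⁻¹, ρ g v, ?_, fun e => hv0 ((ρ g).map_eq_zero_iff.mp e), ⟨c, ?_⟩, ?_⟩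
    · rintro ⟨d, hd⟩
      refine hh ⟨d, fun x => (ρ g).injective ?_⟩
      have := hd (ρ g x)
      rw [map_mul, map_mul, LinearEquiv.mul_apply, LinearEquiv.mul_apply, map_inv] at this
      rw [show (ρ g)⁻¹ (ρ g x) = x from (ρ g).symm_apply_apply x] at this
      rw [this, map_smul]
    · rw [map_mul, map_mul, LinearEquiv.mul_apply, LinearEquiv.mul_apply, map_inv,
        show (ρ g)⁻¹ (ρ g v) = v from (ρ g).symm_apply_apply v, hc, map_smul]
    · rw [hl, span_map_rho]⟩
  one_smul l := Subtype.ext (by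
    change l.1.map (ρ 1).toLinearMap = l.1
    rw [map_one]; exact Submodule.map_id _)
  mul_smul g h l := Subtype.ext (by
    change l.1.map (ρ (g * h)).toLinearMap =
      (l.1.map (ρ h).toLinearMap).map (ρ g).toLinearMap
    rw [← Submodule.map_comp, map_mul]; rfl)

/-- The induced permutation group. -/
abbrev PImage : Subgroup (Equiv.Perm (Pts ρ)) := (MulAction.toPermHom G (Pts ρ)).range

/-- The image of an element. -/
def img (g : G) : PImage ρ := ⟨MulAction.toPermHom G (Pts ρ) g, g, rfl⟩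

lemma img_mul (g h : G) : img ρ (g * h) = img ρ g * img ρ h :=
  Subtype.ext (map_mul _ g h)

lemma img_pow (g : G) (n : ℕ) : img ρ (g ^ n) = img ρ g ^ n :=
  Subtype.ext (by simp [img, map_pow])

lemma img_surjective (γ : PImage ρ) : ∃ g, img ρ g = γ := by
  obtain ⟨γ, g, rfl⟩ := γ
  exact ⟨g, rfl⟩

namespace PlaneRep

variable {ρ} (hρ : PlaneRep ρ) [IsAlgClosed K]
include hρ

omit hρ in
lemma smul_eq_iff {g : G} {l : Pts ρ} {v : V} (hv : v ≠ 0) (hl : l.1 = Submodule.span K {v}) :
    g • l = l ↔ IsEig ρ g v := by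
  constructor
  · intro h
    have h1 : ρ g v ∈ (g • l).1 := ⟨v, hl ▸ Submodule.mem_span_singleton_self v, rfl⟩
    rw [h, hl] at h1
    obtain ⟨c, hc⟩ := Submodule.mem_span_singleton.mp h1
    exact ⟨c, hc.symm⟩
  · rintro ⟨c, hc⟩
    apply Subtype.ext
    show l.1.map (ρ g).toLinearMap = l.1
    rw [hl, span_map_rho, hc]
    refine Submodule.span_singleton_smul_eq (IsUnit.mk0 c ?_) v
    rintro rfl
    rw [zero_smul, ← map_zero (ρ g)] at hc
    exact hv ((ρ g).injective hc)

/-- The two points of a non-scalar element. -/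
lemma fix_pair {g : G} (hg : ¬ IsSc ρ g) : ∃ l m : Pts ρ, l ≠ m ∧ g • l = l ∧ g • m = m ∧
    ∀ n, g • n = n → n = l ∨ n = m := by
  obtain ⟨v, w, hli, hv, hw, huniq⟩ := hρ.eig_pair hg
  have hv0 : v ≠ 0 := hli.ne_zero 0
  have hw0 : w ≠ 0 := hli.ne_zero 1
  let l : Pts ρ := ⟨_, g, v, hg, hv0, hv, rfl⟩
  let m : Pts ρ := ⟨_, g, w, hg, hw0, hw, rfl⟩
  refine ⟨l, m, fun e => ?_, (smul_eq_iff hv0 rfl).mpr hv, (smul_eq_iff hw0 rfl).mpr hw,
    fun n hn => ?_⟩
  · have h1 : v ∈ Submodule.span K {w} := by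
      rw [← show Submodule.span K {v} = Submodule.span K {w} from congrArg Subtype.val e]
      exact Submodule.mem_span_singleton_self v
    obtain ⟨t, ht⟩ := Submodule.mem_span_singleton.mp h1
    have := LinearIndependent.pair_iff.mp hli 1 (-t) (by rw [one_smul, neg_smul, ht, add_neg_cancel])
    exact one_ne_zero this.1
  · obtain ⟨h, x, -, hx0, -, hxn⟩ := n.2
    rcases huniq x ((smul_eq_iff hx0 hxn).mp hn) with ⟨t, rfl⟩ | ⟨t, rfl⟩
    · exact Or.inl (Subtype.ext (hxn.trans (Submodule.span_singleton_smul_eq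
        (IsUnit.mk0 t fun e => hx0 (by rw [e, zero_smul])) v)))
    · exact Or.inr (Subtype.ext (hxn.trans (Submodule.span_singleton_smul_eq
        (IsUnit.mk0 t fun e => hx0 (by rw [e, zero_smul])) w)))

lemma finite_pts : Finite (Pts ρ) := by
  classical
  choose l m _ _ _ huniq using fun g : {g : G // ¬ IsSc ρ g} => hρ.fix_pair g.2
  refine Finite.of_surjective (fun x : {g : G // ¬ IsSc ρ g} × Bool => bif x.2 then l x.1 else m x.1)
    fun n => ?_
  obtain ⟨g, v, hg, hv0, hv, hn⟩ := n.2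
  rcases huniq ⟨g, hg⟩ n ((smul_eq_iff hv0 hn).mpr hv) with e | e
  · exact ⟨(⟨g, hg⟩, true), e.symm⟩
  · exact ⟨(⟨g, hg⟩, false), e.symm⟩

omit hρ in
lemma img_eq_one_iff_fix (g : G) : img ρ g = 1 ↔ ∀ l : Pts ρ, g • l = l := by
  constructor
  · intro h l
    have := congrArg (fun γ : PImage ρ => (γ : Equiv.Perm (Pts ρ)) l) h
    simpa [img] using this
  · intro h
    exact Subtype.ext (Equiv.ext fun l => by simpa [img] using h l)

variable (hno : ∀ v : V, v ≠ 0 → ∃ g, ¬ IsEig ρ g v)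
include hno

lemma exists_nonscalar : ∃ g, ¬ IsSc ρ g := by
  haveI : Nontrivial V := Module.nontrivial_of_finrank_pos (R := K) (by rw [hρ.finrank]; norm_num)
  obtain ⟨v, hv⟩ := exists_ne (0 : V)
  obtain ⟨g, hg⟩ := hno v hv
  exact ⟨g, fun h => hg (hρ.isEig_of_isSc h v)⟩

lemma img_eq_one (g : G) : img ρ g = 1 ↔ IsSc ρ g := by
  rw [img_eq_one_iff_fix]
  constructor
  · intro h
    by_contra hg
    obtain ⟨l, m, hlm, hl, hm, huniq⟩ := hρ.fix_pair hg
    obtain ⟨h', v, -, hv0, -, hlv⟩ := l.2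
    obtain ⟨x, hx⟩ := hno v hv0
    have hxsc : ¬ IsSc ρ x := fun e => hx (hρ.isEig_of_isSc e v)
    obtain ⟨p, q, hpq, hp, hq, -⟩ := hρ.fix_pair hxsc
    rcases huniq p (h p) with rfl | rfl <;> rcases huniq q (h q) with rfl | rfl
    · exact hpq rfl
    · exact hx ((smul_eq_iff hv0 hlv).mp hp)
    · exact hx ((smul_eq_iff hv0 hlv).mp hq)
    · exact hpq rfl
  · rintro hg l
    obtain ⟨h', v, -, hv0, -, hlv⟩ := l.2
    exact (smul_eq_iff hv0 hlv).mpr (hρ.isEig_of_isSc hg v)

/-- The induced group has the two-point property. -/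
theorem twoPoint : TwoPoint (PImage ρ) (Pts ρ) := by
  haveI := hρ.finite_pts
  constructor
  · intro γ hγ
    obtain ⟨g, rfl⟩ := img_surjective ρ γ
    have hg : ¬ IsSc ρ g := fun e => hγ ((hρ.img_eq_one hno g).mpr e)
    obtain ⟨l, m, hlm, hl, hm, huniq⟩ := hρ.fix_pair hg
    refine Nat.card_eq_two_iff.mpr ⟨⟨l, hl⟩, ⟨m, hm⟩, fun e => hlm (congrArg Subtype.val e), ?_⟩
    refine Set.eq_univ_of_forall fun n => ?_
    rcases huniq n.1 n.2 with e | e
    · exact Or.inl (Subtype.ext e)
    · exact Or.inr (Subtype.ext e)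
  · intro l
    obtain ⟨g, v, hg, hv0, hv, hl⟩ := l.2
    exact ⟨img ρ g, fun e => hg ((hρ.img_eq_one hno g).mp e), (smul_eq_iff hv0 hl).mpr hv⟩
  · intro l
    obtain ⟨-, v, -, hv0, -, hl⟩ := l.2
    obtain ⟨g, hg⟩ := hno v hv0
    exact ⟨img ρ g, fun e => hg ((smul_eq_iff hv0 hl).mp e)⟩
  · obtain ⟨g, hg⟩ := hρ.exists_nonscalar hno
    exact ⟨img ρ g, fun e => hg ((hρ.img_eq_one hno g).mp e)⟩
  · intro l γ δ hγ hδ hγ2 hδ2 hγl hδl
    obtain ⟨g, rfl⟩ := img_surjective ρ γ
    obtain ⟨h, rfl⟩ := img_surjective ρ δ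
    obtain ⟨-, v, -, hv0, -, hl⟩ := l.2
    rw [← img_mul, hρ.img_eq_one hno] at hγ2 hδ2
    have := hρ.isSc_of_involutions hv0 ((smul_eq_iff hv0 hl).mp hγl) ((smul_eq_iff hv0 hl).mp hδl)
      (fun e => hγ ((hρ.img_eq_one hno g).mpr e)) (fun e => hδ ((hρ.img_eq_one hno h).mpr e))
      hγ2 hδ2
    rw [← hρ.img_eq_one hno, img_mul] at this
    calc img ρ g = img ρ g * (img ρ g⁻¹ * img ρ h) := by rw [this, mul_one]
      _ = img ρ h := by rw [← mul_assoc, ← img_mul, mul_inv_cancel, (hρ.img_eq_one hno 1).mpr isSc_one, one_mul]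

end PlaneRep

end CfsgLib.Geometric.SLThree
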