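import Cfsg.Agent.Lib.Geometric.Basic
import Cfsg.Agent.Lib.Geometric.SLThree.Proj
import Cfsg.Agent.Lib.Geometric.SLThree.Homology

/-!
Involutions of `SL₃` as homologies, in a group without transvections, and the representation of
the stabiliser of a line and a complementary plane on that plane.
-/

set_option autoImplicit false
set_option linter.unusedSectionVars false
set_option linter.style.haveILetI false

namespace CfsgLib.Geometric.SLThree

open Matrix

variable {F : Type*} [Field F]

local notation "V3" => Fin 3 → F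
local notation "G3" => GL (Fin 3) F

/-- In a subgroup without transvections a transvection is trivial. -/
lemma NoTv.eq_one {H : Subgroup (GL (Fin 3) F)} (hT : NoTv H) {v : Fin 3 → F}
    {φ : (Fin 3 → F) →ₗ[F] F} {h : φ v = 0} (hm : tv v φ h ∈ H) : tv v φ h = 1 := by
  refine gl_ext fun x => ?_
  rcases hT v φ h hm with hv | hv <;> simp [hv]

/-- `t` is the homology with centre `c` and axis `ker φ` inducing `-1` on the axis. -/
def IsHom (t : GL (Fin 3) F) (c : Fin 3 → F) (φ : (Fin 3 → F) →ₗ[F] F) : Prop :=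
  φ c = 1 ∧ ∀ x, ap t x = -x + (2 * φ x) • c

/-- A scalar matrix in `GL₃`. -/
def IsScalar3 (g : GL (Fin 3) F) : Prop := ∃ a : F, ∀ x, ap g x = a • x

lemma smul_ap_mem {g : G3} {v : V3} {a : F} (h : ap g v = a • v) (hv : v ≠ 0) : a ≠ 0 := by
  rintro rfl
  rw [zero_smul] at h
  exact ap_ne_zero g hv h

lemma ap_inv_of_eig {g : G3} {v : V3} {a : F} (h : ap g v = a • v) (ha : a ≠ 0) :
    ap g⁻¹ v = a⁻¹ • v := by
  have h0 := congrArg (fun z => a⁻¹ • ap g⁻¹ z) h
  simp only [ap_inv_ap, ap_smul, smul_smul, inv_mul_cancel₀ ha, one_smul] at h0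
  exact h0.symm

lemma ap_pow_of_eig {g : G3} {v : V3} {a : F} (h : ap g v = a • v) : ∀ n : ℕ, ap (g ^ n) v = a ^ n • v
  | 0 => by simp
  | n + 1 => by rw [pow_succ, ap_mul, h, ap_smul, ap_pow_of_eig h n, smul_smul, pow_succ']

lemma gl_ext_hom {g h : G3} {c : V3} {φ : V3 →ₗ[F] F} (hφ : φ c = 1) (hc : ap g c = ap h c)
    (hL : ∀ x, φ x = 0 → ap g x = ap h x) : g = h := by
  refine gl_ext fun x => ?_
  have hx : φ (x - φ x • c) = 0 := by simp [hφ]
  have := hL _ hx
  rw [ap_sub, ap_sub, ap_smul, ap_smul, hc] at this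
  exact sub_left_inj.mp this

/-- Three eigen values multiply to the determinant. -/
lemma det_eq_of_line_plane {g : G3} {c : V3} {φ : V3 →ₗ[F] F} (hφ : φ c = 1) {α β : F}
    (hc : ap g c = α • c) (hL : ∀ x, φ x = 0 → ap g x = β • x) :
    (g : Matrix (Fin 3) (Fin 3) F).det = α * β ^ 2 := by
  have hg : ∀ x, ap g x = β • x + ((α - β) * φ x) • c := by
    intro x
    have := hL (x - φ x • c) (by simp [hφ])
    rw [ap_sub, ap_smul, hc] at this
    linear_combination (norm := module) this
  by_cases hβ : β = 0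
  · exfalso
    obtain ⟨x, hx0, hx⟩ : ∃ x : V3, x ≠ 0 ∧ φ x = 0 := by
      have : 0 < Module.finrank F (LinearMap.ker φ) := by
        have h1 := LinearMap.finrank_range_add_finrank_ker φ
        have h2 := Submodule.finrank_le (LinearMap.range φ)
        rw [Module.finrank_fin_fun] at h1
        rw [Module.finrank_self] at h2
        omega
      obtain ⟨x, hx⟩ := Module.finrank_pos_iff_exists_ne_zero.mp this
      exact ⟨x, fun e => hx (Subtype.ext e), x.2⟩
    exact ap_ne_zero g hx0 (by rw [hL x hx, hβ, zero_smul])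
  let d : G3 := Units.map (Matrix.scalar (Fin 3) : F →+* Matrix (Fin 3) (Fin 3) F).toMonoidHom
    (Units.mk0 β hβ)
  have hd : ∀ x, ap d x = β • x := fun x => by
    show ((Matrix.scalar (Fin 3)) β) *ᵥ x = _
    ext i; simp [Matrix.mulVec_diagonal]
  have h1 := det_of_ap (d⁻¹ * g) c ((α / β - 1) • φ) (fun x => by
    rw [ap_mul, hg, ap_add, ap_smul, ap_smul, ap_inv_of_eig (hd x) hβ, ap_inv_of_eig (hd c) hβ,
      smul_smul, smul_smul, mul_inv_cancel₀ hβ, one_smul]
    congr 2
    simp only [LinearMap.smul_apply, smul_eq_mul]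
    field_simp)
  have h2 : (g : Matrix (Fin 3) (Fin 3) F).det
      = (d : Matrix (Fin 3) (Fin 3) F).det * ((d⁻¹ * g : G3) : Matrix (Fin 3) (Fin 3) F).det := by
    rw [← Matrix.det_mul, ← Units.val_mul, mul_inv_cancel_left]
  rw [h2, h1, show (d : Matrix (Fin 3) (Fin 3) F).det = β ^ 3 from by
    show ((Matrix.scalar (Fin 3)) β).det = _
    simp [Matrix.det_diagonal]]
  simp only [LinearMap.smul_apply, hφ, smul_eq_mul]
  field_simp
  ring

section Two

variable (h2 : (2 : F) ≠ 0)
include h2

/-- An involution of `SL₃` is a homology. -/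
theorem exists_isHom {t : G3} (hd : t ∈ Cfsg.Geo.specialLinear (Fin 3) F) (ht : t * t = 1)
    (h1 : t ≠ 1) : ∃ c φ, IsHom t c φ := by
  set A := fixSpace t
  have htt : ∀ x, ap t (ap t x) = x := fun x => by rw [← ap_mul, ht, ap_one]
  let B : Submodule F V3 := LinearMap.ker ((apEquiv t).toLinearMap + LinearMap.id)
  have hB : ∀ x, x ∈ B ↔ ap t x = -x := fun x => by
    simp [B, LinearMap.mem_ker, eq_neg_iff_add_eq_zero]
  have hcompl : IsCompl A B := by
    constructor
    · rw [Submodule.disjoint_def]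
      intro x hxA hxB
      rw [hB, mem_fixSpace.mp hxA] at hxB
      have : (2 : F) • x = 0 := by rw [two_smul]; nth_rewrite 1 [hxB]; exact neg_add_cancel x
      exact (smul_eq_zero.mp this).resolve_left h2
    · rw [codisjoint_iff, eq_top_iff]
      intro x _
      refine Submodule.mem_sup.mpr ⟨(2 : F)⁻¹ • (x + ap t x), ?_, (2 : F)⁻¹ • (x - ap t x), ?_, ?_⟩
      · rw [mem_fixSpace, ap_smul, ap_add, htt, add_comm]
      · rw [hB, ap_smul, ap_sub, htt, ← smul_neg, neg_sub]
      · rw [← smul_add, show x + ap t x + (x - ap t x) = (2 : F) • x by rw [two_smul]; abel,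
          smul_smul, inv_mul_cancel₀ h2, one_smul]
  have hdim := Submodule.finrank_add_eq_of_isCompl hcompl
  rw [Module.finrank_fin_fun] at hdim
  have hA3 : Module.finrank F A ≠ 3 := fun h => h1 (fixSpace_eq_top_iff.mp
    (Submodule.eq_top_of_finrank_eq (by rw [h, Module.finrank_fin_fun])))
  have key : ∀ x, ∃ a ∈ A, ∃ b ∈ B, a + b = x := fun x =>
    Submodule.mem_sup.mp (by rw [hcompl.sup_eq_top]; exact Submodule.mem_top)
  rcases (show Module.finrank F A = 0 ∨ Module.finrank F A = 1 ∨ Module.finrank F A = 2 by omega)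
    with h | h | h
  · exfalso
    have : ∀ x, ap t x = -x := by
      intro x
      obtain ⟨a, ha, b, hb, rfl⟩ := key x
      rw [Submodule.finrank_eq_zero.mp h, Submodule.mem_bot] at ha
      rw [ha, zero_add]; exact (hB b).mp hb
    obtain ⟨c, φ, hφ⟩ : ∃ (c : V3) (φ : V3 →ₗ[F] F), φ c = 1 :=
      ⟨Pi.single 0 1, LinearMap.proj 0, by simp⟩
    have hdet := det_eq_of_line_plane (g := t) hφ (α := -1) (β := -1) (by simp [this])
      (fun x _ => by simp [this])
    rw [(mem_specialLinear_iff t).mp hd] at hdet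
    exact h2 (by linear_combination hdet)
  · obtain ⟨c0, hc0⟩ := finrank_eq_one_iff'.mp h
    have hc : (c0 : V3) ∉ B := fun hm =>
      hc0.1 (Subtype.ext (Submodule.disjoint_def.mp hcompl.disjoint _ c0.2 hm))
    obtain ⟨φ, hφB, hφc⟩ := exists_functional_eq_one hc
    refine ⟨c0, φ, hφc, fun x => ?_⟩
    obtain ⟨a, ha, b, hb, rfl⟩ := key x
    obtain ⟨r, hr⟩ := hc0.2 ⟨a, ha⟩
    have hr' : a = r • (c0 : V3) := (congrArg Subtype.val hr).symm
    rw [ap_add, mem_fixSpace.mp ha, (hB b).mp hb, map_add, hφB b hb, hr', map_smul, hφc, smul_eq_mul,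
      mul_one, add_zero]
    module
  · exfalso
    have hB1 : Module.finrank F B = 1 := by omega
    obtain ⟨b0, hb0⟩ := finrank_eq_one_iff'.mp hB1
    have hb : (b0 : V3) ∉ A := fun hm =>
      hb0.1 (Subtype.ext (Submodule.disjoint_def.mp hcompl.disjoint _ hm b0.2))
    obtain ⟨φ, hφA, hφb⟩ := exists_functional_eq_one hb
    have hdet := det_eq_of_line_plane (g := t) hφb (α := -1) (β := 1)
      (by simpa using (hB _).mp b0.2) (fun x hx => by
        obtain ⟨a, ha, b, hb', rfl⟩ := key x
        obtain ⟨r, hr⟩ := hb0.2 ⟨b, hb'⟩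
        have hr' : b = r • (b0 : V3) := (congrArg Subtype.val hr).symm
        rw [map_add, hφA a ha, hr', map_smul, hφb, smul_eq_mul, mul_one, zero_add] at hx
        rw [hr', hx, zero_smul, add_zero, one_smul]
        exact mem_fixSpace.mp ha)
    rw [(mem_specialLinear_iff t).mp hd] at hdet
    exact h2 (by linear_combination hdet)

namespace IsHom

variable {t : GL (Fin 3) F} {c : Fin 3 → F} {φ : (Fin 3 → F) →ₗ[F] F} (ht : IsHom t c φ)
include ht

omit h2 in
lemma ap_c : ap t c = c := by rw [ht.2, ht.1]; module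

omit h2 in
lemma ap_ker {x : V3} (hx : φ x = 0) : ap t x = -x := by rw [ht.2, hx]; simp

omit h2 in
lemma c_ne : c ≠ 0 := fun h => by simpa [h] using ht.1

lemma ker_of_neg {x : V3} (hx : ap t x = -x) : φ x = 0 := by
  rw [ht.2, add_eq_left, smul_eq_zero] at hx
  exact (mul_eq_zero.mp (hx.resolve_right ht.c_ne)).resolve_left h2

lemma eq_smul_of_fix {x : V3} (hx : ap t x = x) : x = φ x • c := by
  rw [ht.2] at hx
  have : (2 : F) • x = (2 : F) • (φ x • c) := by
    rw [smul_smul, two_smul]; linear_combination (norm := module) -hx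
  exact smul_right_injective _ h2 this

omit h2 in
lemma conj (g : G3) : IsHom (g * t * g⁻¹) (ap g c) (φ.comp (apEquiv g⁻¹).toLinearMap) := by
  refine ⟨by simp [ap_inv_ap, ht.1], fun x => ?_⟩
  rw [ap_mul, ap_mul, ht.2, ap_add, ap_smul, ← neg_one_smul F (ap g⁻¹ x), ap_smul, ap_ap_inv,
    neg_one_smul]
  rfl

omit h2 in
lemma sq : t * t = 1 := gl_ext_hom ht.1 (by rw [ap_mul, ht.ap_c, ht.ap_c, ap_one]) fun x hx => by
  rw [ap_mul, ht.ap_ker hx, ← neg_one_smul F x, ap_smul, ht.ap_ker hx, ap_one]
  simp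

lemma ne_one : t ≠ 1 := by
  intro h
  obtain ⟨x, hx0, hx⟩ : ∃ x : V3, x ≠ 0 ∧ φ x = 0 := by
    have : 0 < Module.finrank F (LinearMap.ker φ) := by
      have h1 := LinearMap.finrank_range_add_finrank_ker φ
      have h3 := Submodule.finrank_le (LinearMap.range φ)
      rw [Module.finrank_fin_fun] at h1
      rw [Module.finrank_self] at h3
      omega
    obtain ⟨x, hx⟩ := Module.finrank_pos_iff_exists_ne_zero.mp this
    exact ⟨x, fun e => hx (Subtype.ext e), x.2⟩
  have := ht.ap_ker hx
  rw [h, ap_one] at this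
  have h' : (2 : F) • x = 0 := by rw [two_smul]; nth_rewrite 1 [this]; exact neg_add_cancel x
  exact hx0 ((smul_eq_zero.mp h').resolve_left h2)

variable {H : Subgroup (GL (Fin 3) F)} (hT : NoTv H) (htH : t ∈ H)
include hT htH

omit h2 in
/-- Two homologies with one centre agree. -/
lemma eq_of_centre {s : G3} (hsH : s ∈ H) {ψ : V3 →ₗ[F] F} (hs : IsHom s c ψ) : s = t := by
  have h0 : ((2 : F) • (φ - ψ)) c = 0 := by simp [ht.1, hs.1]
  have he : s * t = tv c ((2 : F) • (φ - ψ)) h0 := gl_ext fun x => by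
    rw [ap_mul, ap_tv, ht.2, hs.2]
    simp only [map_add, map_neg, map_smul, hs.1, smul_eq_mul, LinearMap.smul_apply,
      LinearMap.sub_apply]
    module
  have h := hT.eq_one (h := h0) (he ▸ H.mul_mem hsH htH)
  rw [← he] at h
  exact (eq_inv_of_mul_eq_one_left h).trans (inv_eq_of_mul_eq_one_right ht.sq)

omit hT htH in
lemma commute_imp {g : G3} (hg : g * t = t * g) :
    ap g c = φ (ap g c) • c ∧ φ (ap g c) ≠ 0 ∧ ∀ x, φ x = 0 → φ (ap g x) = 0 := by
  have h1 : ap g c = φ (ap g c) • c := ht.eq_smul_of_fix h2 (by rw [← ap_mul, ← hg, ap_mul, ht.ap_c])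
  refine ⟨h1, fun h => ap_ne_zero g ht.c_ne (by rw [h1, h, zero_smul]), fun x hx => ?_⟩
  exact ht.ker_of_neg h2 (by
    rw [← ap_mul, ← hg, ap_mul, ht.ap_ker hx, ← neg_one_smul F x, ap_smul, neg_one_smul])

omit h2 in
/-- An element fixing the centre commutes. -/
lemma commute_of_centre {g : G3} (hgH : g ∈ H) {a : F} (hg : ap g c = a • c) : g * t = t * g := by
  have ha : a ≠ 0 := smul_ap_mem hg ht.c_ne
  have hc := ht.conj g
  rw [hg] at hc
  have hs : IsHom (g * t * g⁻¹) c (a • φ.comp (apEquiv g⁻¹).toLinearMap) := by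
    refine ⟨by simpa using hc.1, fun x => ?_⟩
    rw [hc.2, smul_smul]
    simp only [LinearMap.smul_apply, smul_eq_mul]
    congr 2
    ring
  exact mul_inv_eq_iff_eq_mul.mp
    (ht.eq_of_centre hT htH (H.mul_mem (H.mul_mem hgH htH) (H.inv_mem hgH)) hs)

end IsHom

end Two

/-- An element of prime order equal to the characteristic fixing a line and a complementary plane
is a transvection. -/
theorem exists_tv_of_orderOf {g : G3} {p : ℕ} (hp : p.Prime) (hpF : (p : F) = 0)
    (hg : g ^ p = 1) {c : V3} {φ : V3 →ₗ[F] F} (hφ : φ c = 1)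
    {a : F} (hc : ap g c = a • c) (hL : ∀ x, φ x = 0 → φ (ap g x) = 0) :
    ∃ (v : V3) (ψ : V3 →ₗ[F] F) (h : ψ v = 0), g = tv v ψ h := by
  haveI : Fact p.Prime := ⟨hp⟩
  haveI : CharP F p := (CharP.charP_iff_prime_eq_zero hp).mpr hpF
  have hc0 : c ≠ 0 := fun h => by simp [h] at hφ
  have ha : a = 1 := by
    have h1 := ap_pow_of_eig hc p
    rw [hg, ap_one] at h1
    have h2 : a ^ p = 1 := by
      have h3 : (a ^ p - 1) • c = 0 := by rw [sub_smul, one_smul, ← h1, sub_self]
      exact sub_eq_zero.mp ((smul_eq_zero.mp h3).resolve_right hc0)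
    exact sub_eq_zero.mp (pow_eq_zero_iff hp.ne_zero |>.mp (by rw [sub_pow_char, one_pow, h2, sub_self]))
  subst ha
  rw [one_smul] at hc
  haveI : CharP (Module.End F V3) p := charP_of_injective_algebraMap (algebraMap F _).injective p
  let T : Module.End F V3 := (apEquiv g).toLinearMap
  let N : Module.End F V3 := T - 1
  have hNx : ∀ x, N x = ap g x - x := fun x => rfl
  have hTp : ∀ (n : ℕ) (x : V3), (T ^ n) x = ap (g ^ n) x := by
    intro n
    induction n with
    | zero => intro x; simp
    | succ n ih => intro x; rw [pow_succ, pow_succ, Module.End.mul_apply, ih, ap_mul]; rfl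
  have hNp : N ^ p = 0 := by
    rw [sub_pow_char_of_commute p (Commute.one_right T), one_pow, sub_eq_zero]
    refine LinearMap.ext fun x => ?_
    rw [hTp, hg, ap_one]; rfl
  have hNL : ∀ x, φ x = 0 → φ (N x) = 0 := fun x hx => by rw [hNx, map_sub, hL x hx, hx, sub_zero]
  by_cases hN0 : ∀ x, φ x = 0 → N x = 0
  · refine ⟨0, 0, rfl, gl_ext_hom hφ ?_ fun x hx => ?_⟩
    · simp [hc]
    · have := hN0 x hx
      rw [hNx, sub_eq_zero] at this
      simp [this]
  push Not at hN0
  obtain ⟨x0, hx0, hx01⟩ := hN0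
  -- the last non-zero iterate
  obtain ⟨n, hn, hn'⟩ : ∃ n, (N ^ n) x0 ≠ 0 ∧ (N ^ (n + 1)) x0 = 0 := by
    by_contra hcon
    push Not at hcon
    have : ∀ n, (N ^ n) x0 ≠ 0 := fun n => by
      induction n with
      | zero => intro h; exact hx01 (by simp only [pow_zero, Module.End.one_apply] at h; rw [h, map_zero])
      | succ n ih => exact hcon n ih
    exact this p (by rw [hNp]; rfl)
  set u := (N ^ n) x0
  have hu : φ u = 0 := by
    have : ∀ k, φ ((N ^ k) x0) = 0 := fun k => by
      induction k with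
      | zero => simpa using hx0
      | succ k ih => rw [pow_succ', Module.End.mul_apply]; exact hNL _ ih
    exact this n
  have hNu : N u = 0 := by rwa [pow_succ', Module.End.mul_apply] at hn'
  have hNc : N c = 0 := by rw [hNx, hc, sub_self]
  let U : Submodule F V3 := Submodule.span F {c, u}
  have hUle : ∀ z ∈ U, N z = 0 := fun z hz => by
    obtain ⟨r, s, rfl⟩ := Submodule.mem_span_pair.mp hz
    simp [hNc, hNu]
  have hw : x0 ∉ U := fun h => hx01 (hUle x0 h)
  obtain ⟨ψ, hψU, hψw⟩ := exists_functional_eq_one hw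
  have hspan : Submodule.span F ({c, u, x0} : Set V3) = ⊤ := by
    have hli : LinearIndependent F ![c, u, x0] := by
      rw [linearIndependent_fin_succ', linearIndependent_fin2]
      refine ⟨⟨hn, fun r hr => ?_⟩, ?_⟩
      · have hr' : r • u = c := hr
        have := congrArg φ hr'
        rw [map_smul, hu, hφ, smul_zero] at this
        exact zero_ne_one this
      · intro h
        apply hw
        have : Set.range (Fin.init ![c, u, x0]) ⊆ (U : Set V3) := by
          rintro _ ⟨i, rfl⟩
          fin_cases i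
          · show c ∈ U
            exact Submodule.subset_span (Set.mem_insert _ _)
          · show u ∈ U
            exact Submodule.subset_span (Set.mem_insert_of_mem _ rfl)
        exact Submodule.span_le.mpr this h
    have := hli.span_eq_top_of_card_eq_finrank (by rw [Fintype.card_fin, Module.finrank_fin_fun])
    rw [← this]
    congr 1
    rw [Matrix.range_cons, Matrix.range_cons, Matrix.range_cons, Matrix.range_empty]
    simp only [Set.union_empty, Set.singleton_union]
  have hdec : ∀ z, z - ψ z • x0 ∈ U := by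
    intro z
    have hz : z ∈ Submodule.span F ({c, u, x0} : Set V3) := by rw [hspan]; exact Submodule.mem_top
    obtain ⟨r, s, s', rfl⟩ := Submodule.mem_span_triple.mp hz
    have hc' : ψ c = 0 := hψU c (Submodule.subset_span (by simp))
    have hu' : ψ u = 0 := hψU u (Submodule.subset_span (by simp))
    rw [map_add, map_add, map_smul, map_smul, map_smul, hc', hu', hψw, smul_zero, smul_zero,
      zero_add, zero_add, smul_eq_mul, mul_one, add_sub_cancel_right]
    exact Submodule.mem_span_pair.mpr ⟨r, s, rfl⟩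
  have hval : ∀ z, N z = ψ z • N x0 := fun z => by
    have := hUle _ (hdec z)
    rwa [map_sub, map_smul, sub_eq_zero] at this
  have hψN : ψ (N x0) = 0 := by
    -- iterates of `N` are multiples by powers of `ψ (N x0)`
    have hpow : ∀ k, (N ^ (k + 1)) x0 = ψ (N x0) ^ k • N x0 := by
      intro k
      induction k with
      | zero => simp
      | succ k ih => rw [pow_succ', Module.End.mul_apply, ih, map_smul, hval (N x0), smul_smul, ← pow_succ]
    obtain ⟨k, hk⟩ := Nat.exists_eq_succ_of_ne_zero hp.ne_zero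
    have := hpow k
    rw [← Nat.succ_eq_add_one, ← hk, hNp, LinearMap.zero_apply] at this
    exact eq_zero_of_pow_eq_zero ((smul_eq_zero.mp this.symm).resolve_right hx01)
  refine ⟨N x0, ψ, hψN, gl_ext fun z => ?_⟩
  rw [ap_tv, ← hval z, hNx, add_sub_cancel]

end CfsgLib.Geometric.SLThree
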