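import Cfsg.Agent.Lib.Geometric.Centres
import Cfsg.Agent.Lib.Geometric.SLThree.FrameR
import Cfsg.Agent.Lib.Geometric.SLThree.Homology

/-!
Over a field of prime order, an irreducible subgroup of `GL₃` with a non-trivial transvection
contains the special linear group.
-/

set_option autoImplicit false
set_option linter.unusedSectionVars false

namespace CfsgLib.Geometric.SLThree

open Matrix

namespace IrredTv

variable {F : Type*} [Field F]

/-- The transvection with centre `x` and functional `φ` is in `H`. -/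
def Mem (H : Subgroup (GL (Fin 3) F)) (x : Fin 3 → F) (φ : (Fin 3 → F) →ₗ[F] F) : Prop :=
  ∃ h : φ x = 0, tv x φ h ∈ H

variable {H : Subgroup (GL (Fin 3) F)} {x y : Fin 3 → F} {φ ψ : (Fin 3 → F) →ₗ[F] F}

lemma Mem.congr (h : Mem H x φ) (h' : ψ y = 0) (he : ∀ z, φ z • x = ψ z • y) : Mem H y ψ :=
  ⟨h', tv_eq_tv h.1 h' he ▸ h.2⟩

lemma Mem.conj {g : GL (Fin 3) F} (hg : g ∈ H) (h : Mem H x φ) :
    Mem H (ap g x) (φ.comp (apEquiv g⁻¹).toLinearMap) := by
  refine ⟨by simp [ap_inv_ap, h.1], ?_⟩
  have := mul_mem (mul_mem hg h.2) (inv_mem hg)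
  rwa [conj_tv] at this

lemma Mem.add_axis (h : Mem H x φ) (h' : Mem H x ψ) : Mem H x (φ + ψ) := by
  refine ⟨by simp [h.1, h'.1], ?_⟩
  have := mul_mem h.2 h'.2
  rwa [tv_add] at this

lemma Mem.add_centre (h : Mem H x φ) (h' : Mem H y φ) : Mem H (x + y) φ := by
  refine ⟨by simp [h.1, h'.1], ?_⟩
  have := mul_mem h.2 h'.2
  convert this using 1
  refine gl_ext fun z => ?_
  simp [ap_mul, h'.1, smul_add, add_comm, add_left_comm]

lemma mem_zero_axis : Mem H x (0 : (Fin 3 → F) →ₗ[F] F) := by
  refine ⟨rfl, ?_⟩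
  have : tv x (0 : (Fin 3 → F) →ₗ[F] F) rfl = 1 := gl_ext fun z => by simp
  rw [this]; exact one_mem H

variable [Fintype F] {p : ℕ} (hp : p.Prime) (hF : Fintype.card F = p)
include hp hF

lemma exists_nat (c : F) : ∃ n : ℕ, (n : F) = c := by
  have : Fact p.Prime := ⟨hp⟩
  have : CharP F p := charP_of_card_eq_prime hF
  obtain ⟨k, hk⟩ := ((ZMod.castHom_bijective (R := F) hF).2 c)
  exact ⟨k.val, by rw [← hk]; simp [ZMod.natCast_val]⟩

lemma Mem.smul (h : Mem H x φ) (c : F) : Mem H x (c • φ) := by
  obtain ⟨n, rfl⟩ := exists_nat hp hF c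
  induction n with
  | zero => rw [Nat.cast_zero, zero_smul]; exact mem_zero_axis
  | succ n ih => rw [Nat.cast_succ, add_smul, one_smul]; exact ih.add_axis h

lemma Mem.smul_centre (h : Mem H x φ) (c : F) : Mem H (c • x) φ :=
  (h.smul hp hF c).congr (by rw [map_smul, h.1, smul_zero]) fun z => by
    simp [smul_smul, mul_comm]

/-- Two functionals at one centre give all transvections with that centre. -/
lemma fullCentre_of_two (hx : x ≠ 0) (h1 : Mem H x φ) (h2 : Mem H x ψ) (hφ : φ ≠ 0)
    {z : Fin 3 → F} (hz : φ z = 0) (hz' : ψ z ≠ 0) : FullCentre H x := by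
  intro χ hχ
  obtain ⟨w, hw⟩ : ∃ w, φ w = 1 := by
    obtain ⟨w, hw⟩ : ∃ w, φ w ≠ 0 := by
      by_contra h
      push Not at h
      exact hφ (LinearMap.ext h)
    exact ⟨(φ w)⁻¹ • w, by simp [hw]⟩
  set T : (Fin 3 → F) →ₗ[F] F × F := φ.prod ψ with hT
  have hsurj : Function.Surjective T := fun ⟨a, b⟩ =>
    ⟨a • w + ((b - a * ψ w) / ψ z) • z, by simp [hT, hw, hz, div_mul_cancel₀ _ hz']⟩
  have hker : LinearMap.ker T = Submodule.span F {x} := by
    refine (Submodule.eq_of_le_of_finrank_eq ?_ ?_).symm
    · rw [Submodule.span_singleton_le_iff_mem, LinearMap.mem_ker]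
      simp [hT, h1.1, h2.1]
    · have := T.finrank_range_add_finrank_ker
      rw [LinearMap.range_eq_top.2 hsurj, finrank_top, Module.finrank_prod, Module.finrank_self,
        Module.finrank_pi, Fintype.card_fin] at this
      rw [finrank_span_singleton hx]
      omega
  set a := χ w - χ z / ψ z * ψ w
  set b := χ z / ψ z
  have hχ' : χ = a • φ + b • ψ := by
    refine LinearMap.ext fun u => ?_
    have hu : u - (φ u • w + ((ψ u - φ u * ψ w) / ψ z) • z) ∈ LinearMap.ker T := by
      simp [hT, LinearMap.mem_ker, hw, hz, div_mul_cancel₀ _ hz']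
    rw [hker, Submodule.mem_span_singleton] at hu
    obtain ⟨t, ht⟩ := hu
    have := congrArg χ ht
    simp only [map_smul, hχ, map_sub, map_add, smul_eq_mul] at this
    simp only [LinearMap.add_apply, LinearMap.smul_apply, smul_eq_mul, a, b]
    linear_combination -this
  exact ((h1.smul hp hF a).add_axis (h2.smul hp hF b)).congr hχ (fun u => by rw [hχ']) |>.2

variable (hirr : ∀ W : Submodule F (Fin 3 → F), (∀ g ∈ H, ∀ w ∈ W, ap g w ∈ W) → W = ⊥ ∨ W = ⊤)
include hirr

/-- Two independent centres on one axis. -/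
lemma exists_fullCentre_of_axis (hxy : x ∉ Submodule.span F {y}) (hy : y ≠ 0) (hφ : φ ≠ 0)
    (h1 : Mem H x φ) (h2 : Mem H y φ) : ∃ u : Fin 3 → F, u ≠ 0 ∧ FullCentre H u := by
  classical
  have hker : Module.finrank F (LinearMap.ker φ) = 2 := by
    have := φ.finrank_range_add_finrank_ker
    rw [LinearMap.range_eq_top.2 (LinearMap.surjective hφ), finrank_top, Module.finrank_self,
      Module.finrank_pi, Fintype.card_fin] at this
    omega
  have hspan : LinearMap.ker φ = Submodule.span F {x, y} := by
    refine (Submodule.eq_of_le_of_finrank_le ?_ ?_).symm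
    · rw [Submodule.span_le]; rintro u (rfl | rfl) <;> simp [h1.1, h2.1]
    · rw [hker]
      have hli : LinearIndependent F ![y, x] := by
        rw [LinearIndependent.pair_iff' hy]
        intro a ha
        exact hxy (ha ▸ Submodule.smul_mem _ a (Submodule.mem_span_singleton_self y))
      have := finrank_span_eq_card hli
      rw [Fintype.card_fin] at this
      rw [show ({x, y} : Set (Fin 3 → F)) = Set.range ![y, x] by
        simp [Matrix.range_cons, Set.pair_comm, Set.union_comm], this]
  have hall : ∀ u, φ u = 0 → Mem H u φ := by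
    intro u hu
    obtain ⟨a, b, rfl⟩ := Submodule.mem_span_pair.1 (hspan ▸ (LinearMap.mem_ker.2 hu))
    exact (h1.smul_centre hp hF a).add_centre (h2.smul_centre hp hF b)
  -- the axis is moved by some element
  obtain ⟨g, hg, w, hw, hgw⟩ : ∃ g ∈ H, ∃ w, φ w = 0 ∧ φ (ap g w) ≠ 0 := by
    by_contra hc
    push Not at hc
    rcases hirr (LinearMap.ker φ) (fun g hg w hw => LinearMap.mem_ker.2 (hc g hg w hw)) with h | h
    · rw [h, finrank_bot] at hker; omega
    · exact hφ (LinearMap.ker_eq_top.1 h)
  set φ' := φ.comp (apEquiv g⁻¹).toLinearMap with hφ'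
  -- the common point of the two axes
  obtain ⟨u, hu0, hu, hu'⟩ : ∃ u : Fin 3 → F, u ≠ 0 ∧ φ u = 0 ∧ φ' u = 0 := by
    have h := (φ.prod φ').finrank_range_add_finrank_ker
    have hle : Module.finrank F (LinearMap.range (φ.prod φ')) ≤ 2 := by
      refine (Submodule.finrank_le _).trans ?_
      rw [Module.finrank_prod, Module.finrank_self]
    rw [Module.finrank_pi, Fintype.card_fin] at h
    obtain ⟨u, hu, hu0⟩ := Submodule.exists_mem_ne_zero_of_ne_bot
      (p := LinearMap.ker (φ.prod φ')) (fun e => by rw [e, finrank_bot] at h; omega)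
    rw [LinearMap.mem_ker, LinearMap.prod_apply] at hu
    exact ⟨u, hu0, congrArg Prod.fst hu, congrArg Prod.snd hu⟩
  have hm' : Mem H u φ' := by
    have := (hall (ap g⁻¹ u) hu').conj hg
    rwa [ap_ap_inv] at this
  exact ⟨u, hu0, fullCentre_of_two hp hF hu0 hm' (hall u hu)
    (fun e => hφ (LinearMap.ext fun z => by
      have := LinearMap.congr_fun e (ap g z)
      simpa [hφ', ap_inv_ap] using this))
    (z := ap g w) (by simp [hφ', ap_inv_ap, hw]) hgw⟩

/-- Two centres either give a full centre or are not incident with each other's axis. -/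
lemma pair_dich (hxy : x ∉ Submodule.span F {y}) (hy : y ≠ 0) (hφ : φ ≠ 0) (hψ : ψ ≠ 0)
    (h1 : Mem H x φ) (h2 : Mem H y ψ) (h0 : φ y = 0 ∨ ψ x = 0) :
    ∃ u : Fin 3 → F, u ≠ 0 ∧ FullCentre H u := by
  have hx : x ≠ 0 := fun e => hxy (e ▸ zero_mem _)
  -- commutators give a second functional at one of the centres
  have step : ∀ {x y : Fin 3 → F} {φ ψ : (Fin 3 → F) →ₗ[F] F}, y ≠ 0 → φ ≠ 0 → Mem H x φ → Mem H y ψ →
      φ y = 0 → ψ x ≠ 0 → ∃ u : Fin 3 → F, u ≠ 0 ∧ FullCentre H u := by
    intro x y φ ψ hy hφ h1 h2 h0 hne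
    have hm := tv_comm_mem h1.2 h2.2 h0
    refine ⟨y, hy, fullCentre_of_two hp hF hy ⟨_, hm⟩ h2
      (fun e => hφ ((smul_eq_zero.1 e).resolve_left (neg_ne_zero.2 hne)))
      (z := x) (by simp [h1.1]) hne⟩
  by_cases hy0 : φ y = 0
  · by_cases hne : ψ x = 0
    · -- both centres on both axes: one axis
      obtain ⟨w, hw⟩ : ∃ w, φ w ≠ 0 := by
        by_contra h
        push Not at h
        exact hφ (LinearMap.ext h)
      have hψw : ψ = (ψ w / φ w) • φ := by
        have hker : LinearMap.ker φ ≤ LinearMap.ker ψ := by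
          have hk : Module.finrank F (LinearMap.ker φ) = 2 := by
            have := φ.finrank_range_add_finrank_ker
            rw [LinearMap.range_eq_top.2 (LinearMap.surjective hφ), finrank_top, Module.finrank_self,
              Module.finrank_pi, Fintype.card_fin] at this
            omega
          have hli : LinearIndependent F ![y, x] := by
            rw [LinearIndependent.pair_iff' hy]
            intro a ha
            exact hxy (ha ▸ Submodule.smul_mem _ a (Submodule.mem_span_singleton_self y))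
          have hc := finrank_span_eq_card hli
          rw [Fintype.card_fin] at hc
          have : Submodule.span F (Set.range ![y, x]) = LinearMap.ker φ := by
            refine Submodule.eq_of_le_of_finrank_eq ?_ (hc.trans hk.symm)
            rw [Submodule.span_le]
            rintro _ ⟨i, rfl⟩
            fin_cases i <;> simp [hy0, h1.1]
          rw [← this, Submodule.span_le]
          rintro _ ⟨i, rfl⟩
          fin_cases i <;> simp [hne, h2.1]
        refine LinearMap.ext fun u => ?_
        have hu : u - (φ u / φ w) • w ∈ LinearMap.ker φ := by simp [div_mul_cancel₀ _ hw]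
        have := hker hu
        simp only [LinearMap.mem_ker, map_sub, map_smul, smul_eq_mul] at this
        simp only [LinearMap.smul_apply, smul_eq_mul]
        field_simp at this ⊢
        linear_combination this
      have hc : ψ w / φ w ≠ 0 := fun e => hψ (by rw [hψw, e, zero_smul])
      have h2' : Mem H y φ := by
        have := h2.smul hp hF (ψ w / φ w)⁻¹
        rwa [hψw, smul_smul, ← hψw, inv_mul_cancel₀ hc, one_smul] at this
      exact exists_fullCentre_of_axis hp hF hirr hxy hy hφ h1 h2'
    · exact step hy hφ h1 h2 hy0 hne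
  · exact step hx hψ h2 h1 (h0.resolve_left hy0) hy0

/-- An irreducible group with a non-trivial transvection contains the special linear group. -/
theorem specialLinear_le (hx : x ≠ 0) (hφ : φ ≠ 0) (hm : Mem H x φ) :
    Cfsg.Geo.specialLinear (Fin 3) F ≤ H := by
  classical
  set S : Set (Fin 3 → F) := {u | u ≠ 0 ∧ ∃ χ, χ ≠ 0 ∧ Mem H u χ} with hS
  have hspan : Submodule.span F S = ⊤ := by
    refine (hirr _ fun g hg w hw => ?_).resolve_left fun e => hx ?_
    · induction hw using Submodule.span_induction with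
      | mem u hu =>
        obtain ⟨hu0, χ, hχ, hmu⟩ := hu
        refine Submodule.subset_span ⟨ap_ne_zero g hu0, _, fun e => hχ (LinearMap.ext fun z => ?_),
          hmu.conj hg⟩
        have := LinearMap.congr_fun e (ap g z)
        simpa [ap_inv_ap] using this
      | zero => rw [ap_zero]; exact zero_mem _
      | add u v _ _ hu hv => rw [ap_add]; exact add_mem hu hv
      | smul c u _ hu => rw [ap_smul]; exact Submodule.smul_mem _ c hu
    · exact (Submodule.eq_bot_iff _).1 e _ (Submodule.subset_span ⟨hx, φ, hφ, hm⟩)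
  have hfull : ∃ u : Fin 3 → F, u ≠ 0 ∧ FullCentre H u := by
    by_contra hno
    -- a second and a third centre
    obtain ⟨w, ⟨hw0, ψ, hψ, hmw⟩, hwx⟩ : ∃ w ∈ S, w ∉ Submodule.span F {x} := by
      by_contra h
      push Not at h
      have := Submodule.finrank_mono (Submodule.span_le.2 h)
      rw [hspan, finrank_top, finrank_span_singleton hx, Module.finrank_pi, Fintype.card_fin] at this
      omega
    obtain ⟨u, ⟨hu0, χ, hχ, hmu⟩, hu⟩ : ∃ u ∈ S, u ∉ Submodule.span F {x, w} := by
      by_contra h
      push Not at h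
      have h1 := Submodule.finrank_mono (Submodule.span_le.2 h)
      have h2 := finrank_span_finset_le_card (R := F) ({x, w} : Finset (Fin 3 → F))
      rw [hspan, finrank_top, Module.finrank_pi, Fintype.card_fin] at h1
      rw [Finset.coe_pair] at h2
      have h3 : ({x, w} : Finset (Fin 3 → F)).card ≤ 2 := Finset.card_le_two
      simp only [Set.finrank] at h2
      omega
    have P : ∀ {a b : Fin 3 → F} {α β : (Fin 3 → F) →ₗ[F] F}, a ∉ Submodule.span F {b} → b ≠ 0 →
        α ≠ 0 → β ≠ 0 → Mem H a α → Mem H b β → α b ≠ 0 ∧ β a ≠ 0 := fun hab hb hα hβ ha hb' =>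
      ⟨fun e => hno (pair_dich hp hF hirr hab hb hα hβ ha hb' (Or.inl e)),
        fun e => hno (pair_dich hp hF hirr hab hb hα hβ ha hb' (Or.inr e))⟩
    obtain ⟨hψx, hφw⟩ := P hwx hx hψ hφ hmw hm
    have hux : u ∉ Submodule.span F {x} := fun h => hu (Submodule.span_mono (by simp) h)
    obtain ⟨hχx, -⟩ := P hux hx hχ hφ hmu hm
    -- the centre on the line through `x` and `w` on the axis of `u`
    set c : F := -(χ w) / (χ x * φ w) with hc
    have hy := hmw.conj (hm.smul hp hF c).2
    rw [ap_tv] at hy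
    have hχy : χ (w + (c • φ) w • x) = 0 := by
      simp only [map_add, map_smul, LinearMap.smul_apply, smul_eq_mul, hc]
      field_simp
      ring
    set ψ' := ψ.comp (apEquiv (tv x (c • φ) (hm.smul hp hF c).1)⁻¹).toLinearMap with hψ'
    have hψ'0 : ψ' ≠ 0 := fun e => hψ (LinearMap.ext fun z => by
      have := LinearMap.congr_fun e (ap (tv x (c • φ) (hm.smul hp hF c).1) z)
      simp only [hψ', LinearMap.comp_apply, LinearEquiv.coe_coe, apEquiv_apply, ap_inv_ap,
        LinearMap.zero_apply] at this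
      simpa using this)
    have hy0 : w + (c • φ) w • x ≠ 0 := fun e => hwx (by
      rw [add_eq_zero_iff_eq_neg] at e
      rw [e]
      exact neg_mem (Submodule.smul_mem _ _ (Submodule.mem_span_singleton_self x)))
    have huy : u ∉ Submodule.span F {w + (c • φ) w • x} := fun h => hu (by
      refine Submodule.span_le.2 ?_ h
      rintro _ rfl
      exact add_mem (Submodule.subset_span (by simp))
        (Submodule.smul_mem _ _ (Submodule.subset_span (by simp))))
    exact (P huy hy0 hχ hψ'0 hmu hy).1 hχy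
  obtain ⟨u, hu0, hu⟩ := hfull
  have htop : centreSubmodule H = ⊤ := by
    refine (hirr _ fun g hg w hw => fullCentre_ap hg hw).resolve_left fun e => hu0 ?_
    exact (Submodule.eq_bot_iff _).1 e u hu
  exact specialLinear_le_of_tv_mem fun v χ h => (htop ▸ Submodule.mem_top : v ∈ centreSubmodule H) χ h

end IrredTv

/-- The standard frame acts irreducibly. -/
lemma Omega.frame_irreducible {F : Type*} [Field F] (o : Omega F) {H : Subgroup (GL (Fin 3) F)}
    (hD : o.D ∈ H) (hP : o.P ∈ H) (W : Submodule F (Fin 3 → F))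
    (hW : ∀ g ∈ H, ∀ w ∈ W, ap g w ∈ W) : W = ⊥ ∨ W = ⊤ := by
  refine or_iff_not_imp_left.2 fun hne => ?_
  obtain ⟨x, hx, hx0⟩ := Submodule.exists_mem_ne_zero_of_ne_bot hne
  have h1 := hW _ hD x hx
  have h2 := hW _ hD _ h1
  have hr := o.root
  have hcube := o.cube
  -- some coordinate vector lies in `W`
  have hi : ∃ i : Fin 3, (Pi.single i 1 : Fin 3 → F) ∈ W := by
    obtain ⟨i, hi⟩ : ∃ i, x i ≠ 0 := by
      by_contra h
      push Not at h
      exact hx0 (funext h)
    have hd : ∀ a : F, x + a • ap o.D x + (a * a) • ap o.D (ap o.D x) ∈ W := fun a =>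
      W.add_mem (W.add_mem hx (W.smul_mem _ h1)) (W.smul_mem _ h2)
    refine ⟨i, ?_⟩
    have key : ∃ a : F, x + a • ap o.D x + (a * a) • ap o.D (ap o.D x) =
        (3 * x i) • (Pi.single i 1 : Fin 3 → F) := by
      fin_cases i
      · refine ⟨1, ?_⟩
        funext j
        fin_cases j <;> simp [o.ap_D, vecHead, vecTail] <;> grind
      · refine ⟨o.w ^ 2, ?_⟩
        funext j
        fin_cases j <;> simp [o.ap_D, vecHead, vecTail] <;> grind
      · refine ⟨o.w, ?_⟩
        funext j
        fin_cases j <;> simp [o.ap_D, vecHead, vecTail] <;> grind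
    obtain ⟨a, ha⟩ := key
    have h3 := W.smul_mem (3 * x i)⁻¹ (ha ▸ hd a)
    rwa [smul_smul, inv_mul_cancel₀ (mul_ne_zero o.three hi), one_smul] at h3
  obtain ⟨i, hi⟩ := hi
  have hshift : ∀ j : Fin 3, (Pi.single j 1 : Fin 3 → F) ∈ W → (Pi.single (j + 1) 1 : Fin 3 → F) ∈ W := by
    intro j hj
    have := hW _ hP _ hj
    convert this using 1
    rw [o.ap_P]
    funext k
    fin_cases j <;> fin_cases k <;> simp
  have hall : ∀ j : Fin 3, (Pi.single j 1 : Fin 3 → F) ∈ W := by
    have a := hshift i hi
    have b := hshift _ a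
    intro j
    fin_cases i <;> fin_cases j <;> first | exact hi | exact a | exact b
  rw [eq_top_iff]
  intro v _
  rw [show v = ∑ j, v j • (Pi.single j 1 : Fin 3 → F) from
    funext fun k => by simp [Finset.sum_apply, Pi.single_apply]]
  exact sum_mem fun j _ => W.smul_mem _ (hall j)

/-- The transvection case for the standard frame over a field of prime order. -/
theorem Omega.sl_le_of_not_noTv {F : Type*} [Field F] [Fintype F] {p : ℕ} (hp : p.Prime)
    (hF : Fintype.card F = p) (o : Omega F) {H : Subgroup (GL (Fin 3) F)} (hD : o.D ∈ H)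
    (hP : o.P ∈ H) (hnt : ¬ NoTv H) : Cfsg.Geo.specialLinear (Fin 3) F ≤ H := by
  simp only [NoTv, not_forall, not_or] at hnt
  obtain ⟨v, φ, h, hm, hv, hφ⟩ := hnt
  exact IrredTv.specialLinear_le hp hF (o.frame_irreducible hD hP) hv hφ ⟨h, hm⟩

end CfsgLib.Geometric.SLThree
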