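import Mathlib

/-!
Finite groups acting with every non-identity element fixing exactly two points: the count of
point stabilisers behind the list of finite subgroups of `PGL₂` of order prime to the
characteristic.
-/

set_option autoImplicit false
set_option linter.unusedSectionVars false
set_option linter.style.haveILetI false

namespace CfsgLib.Geometric.SLThree

lemma klein_arith_sorted {N e₀ e₁ e₂ o₀ o₁ o₂ : ℕ} (h₀ : 2 ≤ e₀) (h₁ : e₀ ≤ e₁) (h₂ : e₁ ≤ e₂)
    (a₀ : o₀ * e₀ = N) (a₁ : o₁ * e₁ = N) (a₂ : o₂ * e₂ = N) (hs : o₀ + o₁ + o₂ = N + 2) :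
    e₀ = 2 ∧ ((e₁ = 2 ∧ o₂ = 2) ∨
      (e₁ = 3 ∧ ((e₂ = 3 ∧ N = 12) ∨ (e₂ = 4 ∧ N = 24) ∨ (e₂ = 5 ∧ N = 60)))) := by
  have b1 : o₁ * e₀ ≤ N := a₁ ▸ Nat.mul_le_mul_left _ h₁
  have b2 : o₂ * e₀ ≤ N := a₂ ▸ Nat.mul_le_mul_left _ (h₁.trans h₂)
  have b3 : o₂ * e₁ ≤ N := a₂ ▸ Nat.mul_le_mul_left _ h₂
  have e0 : e₀ = 2 := by
    by_contra h
    have : 3 ≤ e₀ := by omega
    nlinarith
  subst e0
  refine ⟨rfl, ?_⟩
  have e1 : e₁ = 2 ∨ e₁ = 3 := by
    by_contra h
    push Not at h
    have : 4 ≤ e₁ := by omega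
    nlinarith
  rcases e1 with rfl | rfl
  · left; exact ⟨rfl, by omega⟩
  · right
    refine ⟨rfl, ?_⟩
    have hx : ∃ x, o₁ = 2 * x := ⟨o₁ / 2, by omega⟩
    obtain ⟨x, rfl⟩ := hx
    have ho2 : o₂ = x + 2 := by omega
    subst ho2
    have h6 : e₂ < 6 := by
      by_contra h
      have : 6 ≤ e₂ := by omega
      nlinarith
    interval_cases e₂ <;> omega

/-- The solutions of the stabiliser count with three orbits. -/
lemma klein_arith {N : ℕ} {e o : Fin 3 → ℕ} (he : ∀ i, 2 ≤ e i) (hoe : ∀ i, o i * e i = N)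
    (hs : o 0 + o 1 + o 2 = N + 2) :
    (∃ i, o i = 2 ∧ ∀ j, j ≠ i → e j = 2) ∨
      (∃ i j k, i ≠ j ∧ i ≠ k ∧ j ≠ k ∧ e i = 2 ∧ e j = 3 ∧
        ((e k = 3 ∧ N = 12) ∨ (e k = 4 ∧ N = 24) ∨ (e k = 5 ∧ N = 60))) := by
  have key : ∀ a b c : Fin 3, a ≠ b → a ≠ c → b ≠ c → e a ≤ e b → e b ≤ e c →
      (∃ i, o i = 2 ∧ ∀ j, j ≠ i → e j = 2) ∨
      (∃ i j k, i ≠ j ∧ i ≠ k ∧ j ≠ k ∧ e i = 2 ∧ e j = 3 ∧
        ((e k = 3 ∧ N = 12) ∨ (e k = 4 ∧ N = 24) ∨ (e k = 5 ∧ N = 60))) := by
    intro a b c hab hac hbc h1 h2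
    have hsum : o a + o b + o c = N + 2 := by
      fin_cases a <;> fin_cases b <;> fin_cases c <;> simp_all <;> omega
    obtain ⟨hea, h⟩ := klein_arith_sorted (he a) h1 h2 (hoe a) (hoe b) (hoe c) hsum
    rcases h with ⟨heb, hoc⟩ | ⟨heb, hec⟩
    · refine Or.inl ⟨c, hoc, fun j hj => ?_⟩
      rcases (show j = a ∨ j = b by
        fin_cases a <;> fin_cases b <;> fin_cases c <;> fin_cases j <;> simp_all) with rfl | rfl
      · exact hea
      · exact heb
    · exact Or.inr ⟨a, b, c, hab, hac, hbc, hea, heb, hec⟩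
  rcases le_total (e 0) (e 1) with h01 | h01 <;> rcases le_total (e 1) (e 2) with h12 | h12 <;>
    rcases le_total (e 0) (e 2) with h02 | h02
  all_goals first
    | exact key 0 1 2 (by decide) (by decide) (by decide) (by omega) (by omega)
    | exact key 0 2 1 (by decide) (by decide) (by decide) (by omega) (by omega)
    | exact key 1 0 2 (by decide) (by decide) (by decide) (by omega) (by omega)
    | exact key 1 2 0 (by decide) (by decide) (by decide) (by omega) (by omega)
    | exact key 2 0 1 (by decide) (by decide) (by decide) (by omega) (by omega)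
    | exact key 2 1 0 (by decide) (by decide) (by decide) (by omega) (by omega)

lemma tri : ∀ i j k l : Fin 3, i ≠ j → i ≠ k → j ≠ k → l = i ∨ l = j ∨ l = k := by decide

open MulAction

variable {G P : Type*} [Group G] [Finite G] [MulAction G P] [Finite P]

/-- Every non-identity element fixes exactly two points, every point is fixed by some such
element and no point is fixed by the whole group. -/
structure TwoPoint (G P : Type*) [Group G] [MulAction G P] : Prop where
  two : ∀ g : G, g ≠ 1 → Nat.card (fixedBy P g) = 2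
  stab : ∀ p : P, ∃ g : G, g ≠ 1 ∧ g • p = p
  nofix : ∀ p : P, ∃ g : G, g • p ≠ p
  nontrivial : ∃ g : G, g ≠ 1
  uniq : ∀ (p : P) (g g' : G), g ≠ 1 → g' ≠ 1 → g * g = 1 → g' * g' = 1 → g • p = p → g' • p = p →
    g = g'

namespace TwoPoint

variable (h : TwoPoint G P)
include h

lemma two_le_stab (p : P) : 2 ≤ Nat.card (stabilizer G p) := by
  obtain ⟨g, hg, hgp⟩ := h.stab p
  haveI : Nontrivial (stabilizer G p) :=
    ⟨⟨⟨g, hgp⟩, 1, fun e => hg (congrArg Subtype.val e)⟩⟩
  exact Finite.one_lt_card

omit h in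
lemma card_orbit_mul (p : P) :
    Nat.card (orbit G p) * Nat.card (stabilizer G p) = Nat.card G := by
  classical
  letI := Fintype.ofFinite G
  letI := Fintype.ofFinite P
  simp only [Nat.card_eq_fintype_card]
  exact card_orbit_mul_card_stabilizer_eq_card_group G p

/-- There are exactly three orbits, whose stabilisers satisfy the count. -/
theorem three_orbits : ∃ r : Fin 3 → P, (∀ i j, r i ∈ orbit G (r j) → i = j) ∧
    (∀ p, ∃ i, p ∈ orbit G (r i)) ∧
    Nat.card (orbit G (r 0)) + Nat.card (orbit G (r 1)) + Nat.card (orbit G (r 2))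
      = Nat.card G + 2 := by
  classical
  letI := Fintype.ofFinite G
  letI := Fintype.ofFinite P
  let Ω := Quotient (orbitRel G P)
  have hB := sum_card_fixedBy_eq_card_orbits_mul_card_group G P
  have hN1 : 2 ≤ Fintype.card G := by
    obtain ⟨g, hg⟩ := h.nontrivial
    exact Fintype.one_lt_card_iff_nontrivial.mpr ⟨⟨g, 1, hg⟩⟩
  have hsum : (∑ g : G, Fintype.card (fixedBy P g)) = Fintype.card P + 2 * (Fintype.card G - 1) := by
    rw [← Finset.add_sum_erase _ _ (Finset.mem_univ (1 : G))]
    congr 1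
    · exact Fintype.card_congr ((Equiv.setCongr (fixedBy_one_eq_univ (M := G) P)).trans
        (Equiv.Set.univ P))
    · rw [Finset.sum_congr rfl (g := fun _ => 2), Finset.sum_const,
        Finset.card_erase_of_mem (Finset.mem_univ _), Finset.card_univ, smul_eq_mul, mul_comm]
      intro g hg
      rw [← Nat.card_eq_fintype_card]
      exact h.two g (Finset.ne_of_mem_erase hg)
  have hP : Fintype.card P = ∑ w : Ω, Fintype.card (orbit G w.out) := by
    rw [Fintype.card_congr (selfEquivSigmaOrbits G P), Fintype.card_sigma]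
  have hbound : ∀ w : Ω, 2 * Fintype.card (orbit G w.out) ≤ Fintype.card G := by
    intro w
    have h1 := card_orbit_mul (G := G) w.out
    have h2 := h.two_le_stab w.out
    simp only [Nat.card_eq_fintype_card] at h1 h2
    rw [← h1, mul_comm 2]
    exact Nat.mul_le_mul_left _ h2
  have hone : ∀ w : Ω, 2 ≤ Fintype.card (orbit G w.out) := by
    intro w
    obtain ⟨g, hg⟩ := h.nofix w.out
    exact Fintype.one_lt_card_iff_nontrivial.mpr
      ⟨⟨⟨g • w.out, mem_orbit _ _⟩, ⟨w.out, mem_orbit_self _⟩, fun e =>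
        hg (congrArg Subtype.val e)⟩⟩
  have hle := Finset.sum_le_sum (s := Finset.univ) fun w _ => hbound w
  rw [← Finset.mul_sum, Finset.sum_const, Finset.card_univ, smul_eq_mul, ← hP] at hle
  have hge := Finset.sum_le_sum (s := Finset.univ) fun w _ => hone w
  rw [Finset.sum_const, Finset.card_univ, smul_eq_mul, ← hP] at hge
  rw [hsum] at hB
  obtain ⟨M, hM⟩ : ∃ M, Fintype.card G = M + 2 := ⟨Fintype.card G - 2, by omega⟩
  rw [hM, show 2 * (M + 2 - 1) = 2 * M + 2 by omega] at hB
  rw [hM] at hle
  have hΩ : Fintype.card Ω = 3 := by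
    have u : Fintype.card Ω < 4 := by nlinarith
    have l : ¬ Fintype.card Ω ≤ 2 := by
      intro hh
      interval_cases hc : Fintype.card Ω <;> omega
    omega
  let e : Fin 3 ≃ Ω := (Fintype.equivFinOfCardEq hΩ).symm
  refine ⟨fun i => (e i).out, fun i j hij => ?_, fun p => ⟨e.symm ⟦p⟧, ?_⟩, ?_⟩
  · apply e.injective
    rw [← Quotient.out_eq (e i), ← Quotient.out_eq (e j)]
    exact Quotient.sound hij
  · have : (orbitRel G P) p (e (e.symm ⟦p⟧)).out := by
      apply Quotient.exact
      rw [Quotient.out_eq, e.apply_symm_apply]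
    exact this
  · simp only [Nat.card_eq_fintype_card]
    rw [hM]
    have : ∑ i : Fin 3, Fintype.card (orbit G (e i).out) = Fintype.card P := by
      rw [hP]
      exact Equiv.sum_comp e fun w => Fintype.card (orbit G w.out)
    rw [Fin.sum_univ_three] at this
    rw [hΩ] at hB
    omega

/-- The list: an orbit of two points, or order `12`, `24`, `60`. -/
theorem cases : ∃ r : Fin 3 → P, (∀ p, ∃ i, p ∈ orbit G (r i)) ∧
    ((∃ i, Nat.card (orbit G (r i)) = 2 ∧ ∀ j, j ≠ i → Nat.card (stabilizer G (r j)) = 2) ∨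
      (∃ i j k, i ≠ j ∧ i ≠ k ∧ j ≠ k ∧ Nat.card (stabilizer G (r i)) = 2 ∧
        Nat.card (stabilizer G (r j)) = 3 ∧
        ((Nat.card (stabilizer G (r k)) = 3 ∧ Nat.card G = 12) ∨
          (Nat.card (stabilizer G (r k)) = 4 ∧ Nat.card G = 24) ∨
          (Nat.card (stabilizer G (r k)) = 5 ∧ Nat.card G = 60)))) := by
  obtain ⟨r, -, hcov, hs⟩ := h.three_orbits
  exact ⟨r, hcov, klein_arith (N := Nat.card G) (e := fun i => Nat.card (stabilizer G (r i)))
    (o := fun i => Nat.card (orbit G (r i))) (fun i => h.two_le_stab _) (fun i => card_orbit_mul _)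
    hs⟩

omit h in
lemma card_stab_orbit {p q : P} (hq : q ∈ orbit G p) :
    Nat.card (stabilizer G q) = Nat.card (stabilizer G p) ∧ orbit G q = orbit G p := by
  obtain ⟨g, rfl⟩ : ∃ g : G, g • p = q := hq
  exact ⟨(Nat.card_congr (stabilizerEquivStabilizer (G := G) (g := g) (a := p) rfl).toEquiv).symm,
    orbit_smul g p⟩

/-- If the order is prime to three some orbit has two points. -/
theorem exists_pair (h3 : ¬ 3 ∣ Nat.card G) : ∃ p : P, Nat.card (orbit G p) = 2 := by
  obtain ⟨r, -, ⟨i, hi, -⟩ | ⟨i, j, k, -, -, -, -, hj, -⟩⟩ := h.cases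
  · exact ⟨r i, hi⟩
  · exact absurd (hj ▸ Subgroup.card_subgroup_dvd_card (stabilizer G (r j))) h3

/-- A stabiliser of order at least four: two points or the group of order twenty-four or sixty. -/
theorem big_stab {p : P} (hp : 4 ≤ Nat.card (stabilizer G p)) :
    Nat.card (orbit G p) = 2 ∨
      (Nat.card G = 24 ∧ Nat.card (stabilizer G p) = 4) ∨
      (Nat.card G = 60 ∧ Nat.card (stabilizer G p) = 5) := by
  obtain ⟨r, hcov, hc⟩ := h.cases
  obtain ⟨l, hl⟩ := hcov p
  obtain ⟨e1, e2⟩ := card_stab_orbit hl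
  rw [e1] at hp ⊢
  rw [e2]
  rcases hc with ⟨i, hi, hj⟩ | ⟨i, j, k, hij, hik, hjk, hei, hej, hk⟩
  · by_cases hli : l = i
    · exact Or.inl (hli ▸ hi)
    · rw [hj l hli] at hp; omega
  · rcases (show l = i ∨ l = j ∨ l = k from tri i j k l hij hik hjk) with rfl | rfl | rfl
    · omega
    · omega
    · rcases hk with ⟨hk, -⟩ | ⟨hk, hG⟩ | ⟨hk, hG⟩
      · omega
      · exact Or.inr (Or.inl ⟨hG, hk⟩)
      · exact Or.inr (Or.inr ⟨hG, hk⟩)

/-- Two points with stabilisers of order divisible by three in different orbits: order twelve,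
with at most three involutions. -/
theorem two_three {p q : P} (hne : q ∉ orbit G p) (hp : 3 ∣ Nat.card (stabilizer G p))
    (hq : 3 ∣ Nat.card (stabilizer G q)) :
    Nat.card G = 12 ∧ Nat.card {g : G // g ≠ 1 ∧ g * g = 1} ≤ 3 := by
  classical
  obtain ⟨r, hcov, hc⟩ := h.cases
  obtain ⟨a, ha⟩ := hcov p
  obtain ⟨b, hb⟩ := hcov q
  have hab : a ≠ b := by
    rintro rfl
    exact hne (by rw [(card_stab_orbit ha).2]; exact hb)
  rw [(card_stab_orbit ha).1] at hp
  rw [(card_stab_orbit hb).1] at hq
  rcases hc with ⟨i, hi, hj⟩ | ⟨i, j, k, hij, hik, hjk, hei, hej, hk⟩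
  · by_cases hai : a = i
    · rw [hj b (fun e => hab (hai.trans e.symm))] at hq; omega
    · rw [hj a hai] at hp; omega
  · have hk3 : Nat.card (stabilizer G (r k)) = 3 ∧ Nat.card G = 12 := by
      rcases hk with h' | ⟨hk, hG⟩ | ⟨hk, hG⟩
      · exact h'
      all_goals
        exfalso
        have f : ∀ l, 3 ∣ Nat.card (stabilizer G (r l)) → l = j := by
          intro l hl
          rcases (show l = i ∨ l = j ∨ l = k from tri i j k l hij hik hjk)
            with rfl | rfl | rfl
          · rw [hei] at hl; omega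
          · rfl
          · rw [hk] at hl; omega
        exact hab ((f a hp).trans (f b hq).symm)
    obtain ⟨hk, hG⟩ := hk3
    refine ⟨hG, ?_⟩
    letI := Fintype.ofFinite G
    letI := Fintype.ofFinite P
    set O := orbit G (r i) with hO
    have hOc : Nat.card O = 6 := by
      have := card_orbit_mul (G := G) (r i)
      rw [hei, hG] at this
      rw [hO]
      omega
    -- an involution fixes two points of this orbit and is determined by either
    have hmem : ∀ g : G, g ≠ 1 → g * g = 1 → ∀ x ∈ fixedBy P g, x ∈ O := by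
      intro g hg hgg x hx
      obtain ⟨l, hl⟩ := hcov x
      rcases (show l = i ∨ l = j ∨ l = k from tri i j k l hij hik hjk)
        with rfl | rfl | rfl
      · exact hl
      all_goals
        exfalso
        have h2 : 2 ∣ Nat.card (stabilizer G x) := by
          have := Subgroup.orderOf_dvd_natCard (stabilizer G x) (x := g) hx
          rwa [orderOf_eq_prime (by rw [pow_two]; exact hgg) hg] at this
        rw [(card_stab_orbit hl).1] at h2
        omega
    have huniq : ∀ x ∈ O, ∀ g g' : G, g ≠ 1 → g' ≠ 1 → g • x = x → g' • x = x → g = g' := by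
      intro x hx g g' hg hg' hgx hgx'
      have hs := (card_stab_orbit hx).1
      rw [hei] at hs
      obtain ⟨u, -, hu⟩ := (Nat.card_eq_two_iff' (1 : stabilizer G x)).mp hs
      have e1 := hu ⟨g, hgx⟩ fun e => hg (congrArg Subtype.val e)
      have e2 := hu ⟨g', hgx'⟩ fun e => hg' (congrArg Subtype.val e)
      exact congrArg Subtype.val (e1.trans e2.symm)
    let f : (Σ g : {g : G // g ≠ 1 ∧ g * g = 1}, fixedBy P (g : G)) → O :=
      fun z => ⟨z.2, hmem _ z.1.2.1 z.1.2.2 _ z.2.2⟩
    have hf : Function.Injective f := by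
      rintro ⟨g, x, hx⟩ ⟨g', x', hx'⟩ he
      obtain rfl : x = x' := congrArg Subtype.val he
      obtain rfl : g = g' :=
        Subtype.ext (huniq x (hmem _ g.2.1 g.2.2 x hx) g g' g.2.1 g'.2.1 hx hx')
      rfl
    have h1 := Nat.card_le_card_of_injective f hf
    rw [Nat.card_sigma, Finset.sum_congr rfl (fun (g : {g : G // g ≠ 1 ∧ g * g = 1}) _ => h.two (g : G) g.2.1), Finset.sum_const,
      Finset.card_univ, smul_eq_mul, hOc] at h1
    rw [Nat.card_eq_fintype_card]
    omega

/-- The points with a stabiliser of order at least four form one short orbit. -/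
theorem big_cases : (∃ O : Set P, Nat.card O = 2 ∧
      ∀ p : P, 4 ≤ Nat.card (stabilizer G p) → orbit G p = O) ∨
    (Nat.card G = 24 ∧ ∃ O : Set P, Nat.card O = 6 ∧
      ∀ p : P, 4 ≤ Nat.card (stabilizer G p) → Nat.card (stabilizer G p) = 4 ∧ orbit G p = O) ∨
    (Nat.card G = 60 ∧ ∀ p : P, 4 ≤ Nat.card (stabilizer G p) → Nat.card (stabilizer G p) = 5) ∨
    (∀ p : P, Nat.card (stabilizer G p) < 4) := by
  obtain ⟨r, hcov, ⟨i, hi, hj⟩ | ⟨i, j, k, hij, hik, hjk, hei, hej, hk⟩⟩ := h.cases
  · refine Or.inl ⟨orbit G (r i), hi, fun p hp => ?_⟩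
    obtain ⟨l, hl⟩ := hcov p
    rw [(card_stab_orbit hl).1] at hp
    rw [(card_stab_orbit hl).2]
    by_cases hli : l = i
    · rw [hli]
    · rw [hj l hli] at hp; omega
  · have key : ∀ p : P, 4 ≤ Nat.card (stabilizer G p) →
        Nat.card (stabilizer G p) = Nat.card (stabilizer G (r k)) ∧ orbit G p = orbit G (r k) := by
      intro p hp
      obtain ⟨l, hl⟩ := hcov p
      rw [(card_stab_orbit hl).1] at hp ⊢
      rw [(card_stab_orbit hl).2]
      rcases tri i j k l hij hik hjk with rfl | rfl | rfl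
      · omega
      · omega
      · exact ⟨rfl, rfl⟩
    rcases hk with ⟨hk, -⟩ | ⟨hk, hG⟩ | ⟨hk, hG⟩
    · refine Or.inr (Or.inr (Or.inr fun p => ?_))
      by_contra hp
      have := (key p (by omega)).1
      omega
    · refine Or.inr (Or.inl ⟨hG, orbit G (r k), ?_, fun p hp => ⟨(key p hp).1.trans hk, (key p hp).2⟩⟩)
      have := card_orbit_mul (G := G) (r k)
      rw [hk, hG] at this
      omega
    · exact Or.inr (Or.inr (Or.inl ⟨hG, fun p hp => (key p hp).1.trans hk⟩))

omit h in
lemma orderOf_dvd_stab {p : P} {a : G} (ha : a • p = p) :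
    orderOf a ∣ Nat.card (stabilizer G p) :=
  Subgroup.orderOf_dvd_natCard (stabilizer G p) (x := a) ha

/-- A point fixed by an element of order at least six lies in an orbit of two points, both fixed
by that element. -/
theorem pair_of_six {a : G} (hk : 6 ≤ orderOf a) {p : P} (ha : a • p = p) :
    Nat.card (orbit G p) = 2 := by
  have h6 := hk.trans (Nat.le_of_dvd Nat.card_pos (orderOf_dvd_stab ha))
  rcases h.big_cases with ⟨O, hO, hb⟩ | ⟨-, O, -, hb⟩ | ⟨-, hb⟩ | hb
  · rw [hb p (by omega)]; exact hO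
  · have := (hb p (by omega)).1; omega
  · have := hb p (by omega); omega
  · have := hb p; omega

omit h in
lemma pair_eq {π : Set P} (hπ : Nat.card π = 2) {x y : P} (hx : x ∈ π) (hy : y ∈ π) (hxy : x ≠ y) :
    π = {x, y} := by
  refine (Set.eq_of_subset_of_ncard_le (Set.insert_subset hx (Set.singleton_subset_iff.mpr hy))
    ?_ (Set.toFinite _)).symm
  rw [Set.ncard_pair hxy, ← Nat.card_coe_set_eq, hπ]

/-- Two elements of the same even order at least four whose involutions have product of order
three do not exist. -/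
theorem no_product_three {a b : G} {m : ℕ} (hm : 2 ≤ m) (ha : orderOf a = 2 * m)
    (hb : orderOf b = 2 * m) (hw : orderOf (a ^ m * b ^ m) = 3) : False := by
  classical
  have hinv : ∀ c : G, orderOf c = 2 * m → c ^ m ≠ 1 ∧ c ^ m * c ^ m = 1 := fun c hc =>
    ⟨pow_ne_one_of_lt_orderOf (by omega) (by omega),
      by rw [← pow_add, ← two_mul, ← hc, pow_orderOf_eq_one]⟩
  obtain ⟨ha1, ha2⟩ := hinv a ha
  obtain ⟨hb1, hb2⟩ := hinv b hb
  have fix2 : ∀ c : G, c ≠ 1 → ∃ x y : P, x ≠ y ∧ c • x = x ∧ c • y = y ∧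
      ∀ z, c • z = z → z = x ∨ z = y := by
    intro c hc
    obtain ⟨x, y, hxy, huniv⟩ := Nat.card_eq_two_iff.mp (h.two c hc)
    refine ⟨x, y, fun e => hxy (Subtype.ext e), x.2, y.2, fun z hz => ?_⟩
    have : (⟨z, hz⟩ : fixedBy P c) ∈ (Set.univ : Set (fixedBy P c)) := Set.mem_univ _
    rw [← huniv] at this
    rcases this with e | e
    · exact Or.inl (congrArg Subtype.val e)
    · exact Or.inr (congrArg Subtype.val e)
  have hane : a ≠ 1 := fun e => by rw [e, orderOf_one] at ha; omega
  have hbne : b ≠ 1 := fun e => by rw [e, orderOf_one] at hb; omega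
  obtain ⟨p, q, hpq, hap, haq, -⟩ := fix2 a hane
  obtain ⟨p', q', -, hbp, hbq, -⟩ := fix2 b hbne
  have big : ∀ (c : G) (x : P), orderOf c = 2 * m → c • x = x → 4 ≤ Nat.card (stabilizer G x) :=
    fun c x hc hx => by
      have := Nat.le_of_dvd Nat.card_pos (orderOf_dvd_stab hx); omega
  have powfix : ∀ (c : G) (x : P) (n : ℕ), c • x = x → c ^ n • x = x := by
    intro c x n hx
    induction n with
    | zero => rw [pow_zero, one_smul]
    | succ n ih => rw [pow_succ, mul_smul, hx, ih]
  rcases h.big_cases with ⟨O, hO, hB⟩ | ⟨-, O, hO, hB⟩ | ⟨-, hB⟩ | hB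
  · have hmem : ∀ c x, orderOf c = 2 * m → c • x = x → x ∈ O := fun c x hc hx =>
      hB x (big c x hc hx) ▸ mem_orbit_self x
    have hOeq := pair_eq hO (hmem a p ha hap) (hmem a q ha haq) hpq
    have hfix : b ^ m • p = p := by
      have hq' := hmem b p' hb hbp
      rw [hOeq] at hq'
      rcases hq' with e | e
      · exact powfix b p m (e ▸ hbp)
      · rw [Set.mem_singleton_iff] at e
        have h1 : b • q = q := e ▸ hbp
        have h2 : b • p ∈ O := by
          have h3 : b • p ∈ orbit G p := mem_orbit p b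
          rwa [hB p (big a p ha hap)] at h3
        rw [hOeq] at h2
        rcases h2 with e2 | e2
        · exact powfix b p m e2
        · exact absurd (smul_left_cancel b (e2.trans h1.symm)) hpq
    have := h.uniq p (a ^ m) (b ^ m) ha1 hb1 ha2 hb2 (powfix a p m hap) hfix
    rw [← this, ha2, orderOf_one] at hw
    omega
  · obtain ⟨he, hOp⟩ := hB p (big a p ha hap)
    have hm2 : m = 2 := by
      have := Nat.le_of_dvd Nat.card_pos (orderOf_dvd_stab hap); omega
    subst hm2
    have hgen : Subgroup.zpowers a = stabilizer G p :=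
      Subgroup.eq_of_le_of_card_ge (Subgroup.zpowers_le.mpr hap) (by rw [Nat.card_zpowers, ha, he])
    have hstab : ∀ x : G, x • p = p → x • q = q := by
      intro x hx
      have : x ∈ Subgroup.zpowers a := by rw [hgen]; exact hx
      obtain ⟨n, rfl⟩ := this
      exact (stabilizer G q).zpow_mem haq n
    have hqO : q ∈ O := by
      rw [← (hB q (big a q ha haq)).2]; exact mem_orbit_self q
    have hmove : ∀ x : G, ∀ y ∈ O, x • y ∈ O := by
      intro x y hy
      rw [← hOp] at hy ⊢
      obtain ⟨g, rfl⟩ : ∃ g : G, g • p = y := hy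
      exact ⟨x * g, mul_smul x g p⟩
    -- the pairs: images of `{p, q}`
    have part : ∀ y ∈ O, ∃ z ∈ O, z ≠ y ∧ ∃ x : G, x • p = y ∧ x • q = z := by
      intro y hy
      rw [← hOp] at hy
      obtain ⟨g, rfl⟩ : ∃ g : G, g • p = y := hy
      exact ⟨g • q, hmove g q hqO, fun e => hpq (smul_left_cancel g e).symm, g, rfl, rfl⟩
    choose! ν hνO hνne hνx using part
    have hν : ∀ (x : G) (y : P), y ∈ O → x • ν y = ν (x • y) := by
      intro x y hy
      obtain ⟨g, g1, g2⟩ := hνx y hy
      obtain ⟨g', g1', g2'⟩ := hνx (x • y) (hmove x y hy)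
      have : (g'⁻¹ * (x * g)) • p = p := by rw [mul_smul, mul_smul, g1, ← g1', inv_smul_smul]
      have := hstab _ this
      rw [mul_smul, mul_smul, g2, inv_smul_eq_iff, g2'] at this
      exact this
    have hνq : ν q = p := by
      obtain ⟨_, _, _, _, _, hf⟩ := fix2 a hane
      have hne := hνne q hqO
      have h1 : a • ν q = ν q := by rw [hν a q hqO, haq]
      rcases hf _ h1 with e | e <;> rcases hf _ hap with e' | e' <;>
        rcases hf _ haq with e'' | e'' <;> simp_all
    have hinj : ∀ z ∈ O, ν (ν z) = z := by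
      intro z hz
      obtain ⟨g, g1, g2⟩ := hνx z hz
      rw [← g2, ← hν g q hqO, hνq, g1]
    -- an involution of this kind maps every point to itself or to its partner
    have key : ∀ c : G, orderOf c = 4 →
        ∀ y ∈ O, c ^ 2 • y = y ∨ c ^ 2 • y = ν y := by
      intro c hc y hy
      obtain ⟨hc1, hc2⟩ := hinv c (by omega)
      obtain ⟨u, v, huv, hcu, hcv, hcfix⟩ := fix2 c (fun e => by rw [e, orderOf_one] at hc; omega)
      obtain ⟨u2, v2, -, -, -, hfix2⟩ := fix2 (c ^ 2) hc1
      have huO : u ∈ O := by rw [← (hB u (big c u (by omega) hcu)).2]; exact mem_orbit_self u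
      have hνu : ν u = v := by
        have h1 : c • ν u = ν u := by rw [hν c u huO, hcu]
        exact (hcfix _ h1).resolve_left (hνne u huO)
      have honly : ∀ z, c ^ 2 • z = z → z = u ∨ z = v := by
        intro z hz
        have h1 := hfix2 u (powfix c u 2 hcu)
        have h2 := hfix2 v (powfix c v 2 hcv)
        have h3 := hfix2 z hz
        rcases h1 with rfl | rfl <;> rcases h2 with rfl | rfl <;> rcases h3 with rfl | rfl <;>
          first | exact absurd rfl huv | exact Or.inl rfl | exact Or.inr rfl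
      by_cases hyu : y = u ∨ y = v
      · rcases hyu with rfl | rfl
        · exact Or.inl (powfix c _ 2 hcu)
        · exact Or.inl (powfix c _ 2 hcv)
      right
      push Not at hyu
      have hνv : ν v = u := by
        have h1 : c • ν v = ν v := by rw [hν c v (hνu ▸ hνO u huO), hcv]
        exact (hcfix _ h1).resolve_right (hνne v (hνu ▸ hνO u huO))
      by_contra hne
      rw [pow_two, mul_smul] at hne
      have d1 : c • y ≠ y := fun e => by
        rcases hcfix y e with e' | e'
        · exact hyu.1 e'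
        · exact hyu.2 e'
      have d2 : c • (c • y) ≠ y := fun e => by
        rcases honly y (by rw [pow_two, mul_smul]; exact e) with e' | e'
        · exact hyu.1 e'
        · exact hyu.2 e'
      have d3 : c • y ≠ ν y := by
        intro e
        apply d2
        rw [e, hν c y hy, e, hinj y hy]
      have d4 : ∀ z, z ≠ u → z ≠ v → c • z ≠ u ∧ c • z ≠ v := fun z z1 z2 =>
        ⟨fun e => z1 (smul_left_cancel c (e.trans hcu.symm)),
         fun e => z2 (smul_left_cancel c (e.trans hcv.symm))⟩
      have hyν : ν y ≠ u ∧ ν y ≠ v := ⟨fun e => hyu.2 (by rw [← hinj y hy, e, hνu]),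
        fun e => hyu.1 (by rw [← hinj y hy, e, hνv])⟩
      have d5 := d4 y hyu.1 hyu.2
      have d6 := d4 _ d5.1 d5.2
      have d7 : c • (c • y) ≠ c • y := fun e => d1 (smul_left_cancel c e)
      have d8 : c • ν y = ν (c • y) := hν c y hy
      -- seven distinct points in an orbit of six
      have h9 := d4 _ hyν.1 hyν.2
      have hsub : ({y, ν y, c • y, c • (c • y), c • ν y, u, v} : Set P) ⊆ O := by
        intro z hz
        simp only [Set.mem_insert_iff, Set.mem_singleton_iff] at hz
        rcases hz with rfl | rfl | rfl | rfl | rfl | rfl | rfl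
        · exact hy
        · exact hνO y hy
        · exact hmove c y hy
        · exact hmove c _ (hmove c y hy)
        · exact hmove c _ (hνO y hy)
        · exact huO
        · exact hνu ▸ hνO u huO
      have e1 : c • ν y ≠ y := fun e => d3 (by rw [← hinj (c • y) (hmove c y hy), ← d8, e])
      have e2 : c • ν y ≠ ν y := fun e => by
        rcases hcfix _ e with e' | e'
        · exact hyν.1 e'
        · exact hyν.2 e'
      have e3 : c • ν y ≠ c • y := fun e => hνne y hy (smul_left_cancel c e)
      have e4 : c • ν y ≠ c • (c • y) := fun e => d3 (smul_left_cancel c e).symm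
      have := Set.ncard_le_ncard hsub (Set.toFinite _)
      rw [← Nat.card_coe_set_eq O, hO] at this
      have ne : ∀ {x z : P}, x ≠ z → z ≠ x := fun h => Ne.symm h
      have c0 : c • (c • y) ≠ ν y := hne
      have hnd : [y, ν y, c • y, c • (c • y), c • ν y, u, v].Nodup := by
        simp only [List.nodup_cons, List.mem_cons, List.not_mem_nil, or_false, not_or,
          List.nodup_nil, and_true, not_false_iff]
        exact ⟨⟨ne (hνne y hy), ne d1, ne d2, ne e1, hyu.1, hyu.2⟩,
          ⟨ne d3, ne c0, ne e2, hyν.1, hyν.2⟩,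
          ⟨ne d7, ne e3, d5.1, d5.2⟩, ⟨ne e4, d6.1, d6.2⟩, ⟨h9.1, h9.2⟩, huv⟩
      have hc7 : ({y, ν y, c • y, c • (c • y), c • ν y, u, v} : Set P).ncard = 7 := by
        classical
        rw [show ({y, ν y, c • y, c • (c • y), c • ν y, u, v} : Set P) =
            ↑([y, ν y, c • y, c • (c • y), c • ν y, u, v].toFinset) by simp,
          Set.ncard_coe_finset, List.toFinset_card_of_nodup hnd]
        rfl
      rw [hc7] at this
      omega
    have hA := key a ha
    have hBb := key b hb
    set w := a ^ 2 * b ^ 2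
    have hw1 : w ≠ 1 := fun e => by rw [e, orderOf_one] at hw; omega
    have hwfix : ∀ y ∈ O, w • y = y := by
      intro y hy
      have step : ∀ z ∈ O, w • z = z ∨ w • z = ν z := by
        intro z hz
        show (a ^ 2 * b ^ 2) • z = z ∨ _
        rw [mul_smul]
        rcases hBb z hz with e | e
        · rw [e]; exact hA z hz
        · rw [e]
          rcases hA (ν z) (hνO z hz) with e' | e'
          · exact Or.inr e'
          · exact Or.inl (e'.trans (hinj z hz))
      rcases step y hy with e | e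
      · exact e
      · exfalso
        have h3 : w ^ 3 • y = y := by rw [← hw, pow_orderOf_eq_one, one_smul]
        have h2 : w • (ν y) = y ∨ w • (ν y) = ν y := by
          rcases step y hy with e2 | _
          · exact absurd (e.symm.trans e2) (hνne y hy)
          · rcases step (ν y) (hνO y hy) with e3 | e3
            · exact Or.inr e3
            · left
              rw [e3, hinj y hy]
        have h3 : w • w • w • y = y := by rw [← mul_smul, ← mul_smul, ← pow_two, ← pow_succ]; exact h3
        rw [e] at h3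
        rcases h2 with e3 | e3
        · rw [e3, e] at h3; exact hνne y hy h3
        · rw [e3, e3] at h3; exact hνne y hy h3
    have h6 : Nat.card O ≤ Nat.card (fixedBy P w) :=
      Nat.card_le_card_of_injective (fun y => (⟨y.1, hwfix y.1 y.2⟩ : fixedBy P w))
        fun y y' e => Subtype.ext (congrArg (fun z : fixedBy P w => (z : P)) e)
    rw [h.two w hw1, hO] at h6
    omega
  · have h1 := hB p (big a p ha hap)
    have h2 := orderOf_dvd_stab hap
    rw [ha, h1] at h2
    have := Nat.le_of_dvd (by omega) h2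
    obtain rfl : m = 2 := by omega
    norm_num at h2
  · have := hB p; have := big a p ha hap; omega

end TwoPoint

end CfsgLib.Geometric.SLThree
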