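import Cfsg.Agent.Lib.Geometric.SLThree.Invol

/-!
Subgroups fixing a line and a complementary plane, represented on the plane over the algebraic
closure.
-/

set_option autoImplicit false
set_option linter.unusedSectionVars false
set_option linter.style.haveILetI false

namespace CfsgLib.Geometric.SLThree

open Matrix

variable {F : Type*} [Field F]

/-- A basis of a plane and the coordinates on it. -/
structure Axis (F : Type*) [Field F] where
  c : Fin 3 → F
  φ : (Fin 3 → F) →ₗ[F] F
  φ_c : φ c = 1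
  emb : (Fin 2 → F) →ₗ[F] (Fin 3 → F)
  coord : (Fin 3 → F) →ₗ[F] (Fin 2 → F)
  φ_emb : ∀ w, φ (emb w) = 0
  coord_emb : ∀ w, coord (emb w) = w
  emb_coord : ∀ x, φ x = 0 → emb (coord x) = x

lemma exists_axis {c : Fin 3 → F} {φ : (Fin 3 → F) →ₗ[F] F} (h : φ c = 1) :
    ∃ A : Axis F, A.c = c ∧ A.φ = φ := by
  classical
  have hk : Module.finrank F (LinearMap.ker φ) = 2 := by
    have h1 := LinearMap.finrank_range_add_finrank_ker φ
    rw [LinearMap.range_eq_top.mpr (fun a => ⟨a • c, by simp [h]⟩), finrank_top,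
      Module.finrank_self, Module.finrank_fin_fun] at h1
    omega
  let e : LinearMap.ker φ ≃ₗ[F] (Fin 2 → F) :=
    LinearEquiv.ofFinrankEq _ _ (by rw [hk, Module.finrank_fin_fun])
  let pr : (Fin 3 → F) →ₗ[F] LinearMap.ker φ :=
    LinearMap.codRestrict _ (LinearMap.id - φ.smulRight c) (fun x => by simp [h])
  have hpr : ∀ x, φ x = 0 → (pr x : Fin 3 → F) = x := fun x hx => by
    show x - φ x • c = x
    rw [hx, zero_smul, sub_zero]
  exact ⟨⟨c, φ, h, (LinearMap.ker φ).subtype ∘ₗ e.symm.toLinearMap, e.toLinearMap ∘ₗ pr,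
    fun w => (e.symm w).2,
    fun w => by
      show e (pr (e.symm w : Fin 3 → F)) = w
      rw [show pr (e.symm w : Fin 3 → F) = e.symm w from Subtype.ext (hpr _ (e.symm w).2),
        e.apply_symm_apply],
    fun x hx => by
      show ((e.symm (e (pr x)) : LinearMap.ker φ) : Fin 3 → F) = x
      rw [e.symm_apply_apply, hpr x hx]⟩, rfl, rfl⟩

namespace Axis

variable (A : Axis F)

/-- The elements fixing the centre and the axis. -/
def stab : Subgroup (GL (Fin 3) F) where
  carrier := {g | (∃ a : F, ap g A.c = a • A.c) ∧ ∀ x, A.φ x = 0 ↔ A.φ (ap g x) = 0}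
  one_mem' := ⟨⟨1, by simp⟩, fun x => by simp⟩
  mul_mem' := by
    rintro g h ⟨⟨a, ha⟩, h1⟩ ⟨⟨b, hb⟩, h2⟩
    refine ⟨⟨b * a, by rw [ap_mul, hb, ap_smul, ha, smul_smul]⟩, fun x => ?_⟩
    rw [ap_mul, ← h1, ← h2]
  inv_mem' := by
    rintro g ⟨⟨a, ha⟩, h1⟩
    refine ⟨⟨a⁻¹, ap_inv_of_eig ha (smul_ap_mem ha ?_)⟩, fun x => ?_⟩
    · intro h0
      have := A.φ_c
      rw [h0, map_zero] at this
      exact zero_ne_one this
    · conv_lhs => rw [← ap_ap_inv g x]
      exact (h1 _).symm

lemma c_ne : A.c ≠ 0 := fun h => by simpa [h] using A.φ_c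

/-- An element with the centre and the axis invariant stabilises both. -/
lemma mem_stab {g : GL (Fin 3) F} {a : F} (hc : ap g A.c = a • A.c)
    (hL : ∀ x, A.φ x = 0 → A.φ (ap g x) = 0) : g ∈ A.stab := by
  have ha : a ≠ 0 := smul_ap_mem hc A.c_ne
  refine ⟨⟨a, hc⟩, fun x => ⟨hL x, fun hx => ?_⟩⟩
  have h := hL (x - A.φ x • A.c) (by simp [A.φ_c])
  rw [ap_sub, ap_smul, hc, map_sub, map_smul, map_smul, A.φ_c, hx, zero_sub, neg_eq_zero] at h
  simpa [ha] using h

/-- The restriction to the plane. -/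
def res (g : GL (Fin 3) F) : (Fin 2 → F) →ₗ[F] (Fin 2 → F) :=
  A.coord ∘ₗ (apEquiv g).toLinearMap ∘ₗ A.emb

lemma res_apply (g : GL (Fin 3) F) (w : Fin 2 → F) : A.res g w = A.coord (ap g (A.emb w)) := rfl

lemma res_mul {g h : GL (Fin 3) F} (hh : h ∈ A.stab) : A.res (g * h) = A.res g ∘ₗ A.res h := by
  refine LinearMap.ext fun w => ?_
  rw [LinearMap.comp_apply, res_apply, res_apply, res_apply, ap_mul,
    A.emb_coord _ ((hh.2 _).mp (A.φ_emb w))]

lemma res_one : A.res 1 = LinearMap.id := LinearMap.ext fun w => by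
  rw [res_apply, ap_one, A.coord_emb]; rfl

variable (K : Type*) [Field K] [Algebra F K]

/-- The plane over `K`. -/
noncomputable def resK (g : GL (Fin 3) F) : (Fin 2 → K) →ₗ[K] (Fin 2 → K) :=
  Matrix.toLin' ((LinearMap.toMatrix' (A.res g)).map (algebraMap F K))

lemma resK_mul {g h : GL (Fin 3) F} (hh : h ∈ A.stab) :
    A.resK K (g * h) = A.resK K g ∘ₗ A.resK K h := by
  rw [resK, resK, resK, A.res_mul hh, LinearMap.toMatrix'_comp, Matrix.map_mul, Matrix.toLin'_mul]

lemma resK_one : A.resK K 1 = LinearMap.id := by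
  rw [resK, A.res_one, LinearMap.toMatrix'_id, Matrix.map_one _ (map_zero _) (map_one _),
    Matrix.toLin'_one]

/-- The representation on the plane over `K`. -/
noncomputable def rep {X : Subgroup (GL (Fin 3) F)} (hX : X ≤ A.stab) :
    X →* ((Fin 2 → K) ≃ₗ[K] (Fin 2 → K)) where
  toFun g := LinearEquiv.ofLinearMap (A.resK K (g : GL (Fin 3) F)) (A.resK K (g : GL (Fin 3) F)⁻¹)
    (by rw [← A.resK_mul K (inv_mem (hX g.2)), mul_inv_cancel, resK_one])
    (by rw [← A.resK_mul K (hX g.2), inv_mul_cancel, resK_one])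
  map_one' := LinearEquiv.ext fun w => by
    show A.resK K 1 w = w
    rw [resK_one]; rfl
  map_mul' g h := LinearEquiv.ext fun w => by
    show A.resK K ((g : GL (Fin 3) F) * h) w = _
    rw [A.resK_mul K (hX h.2)]; rfl

/-- The image of an `F`-vector. -/
noncomputable def up (w : Fin 2 → F) : Fin 2 → K := fun i => algebraMap F K (w i)

lemma up_smul (a : F) (w : Fin 2 → F) : up K (a • w) = algebraMap F K a • up K w := by
  funext i; simp [up]

lemma up_inj {v w : Fin 2 → F} (h : up K v = up K w) : v = w :=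
  funext fun i => (algebraMap F K).injective (congrFun h i)

lemma up_ne_zero {w : Fin 2 → F} (h : w ≠ 0) : up K w ≠ 0 := fun e =>
  h (up_inj K (e.trans (by funext i; simp [up])))

lemma resK_up (g : GL (Fin 3) F) (w : Fin 2 → F) : A.resK K g (up K w) = up K (A.res g w) := by
  rw [resK, Matrix.toLin'_apply]
  funext i
  rw [← LinearMap.toMatrix'_mulVec (A.res g)]
  exact (RingHom.map_mulVec (algebraMap F K) _ _ i).symm

variable {A} {X : Subgroup (GL (Fin 3) F)} {hX : X ≤ A.stab}

lemma rep_apply (g : X) (w : Fin 2 → K) : A.rep K hX g w = A.resK K (g : GL (Fin 3) F) w := rfl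

/-- Scalars on the plane. -/
lemma isSc_iff (g : X) :
    IsSc (A.rep K hX) g ↔ ∃ β : F, ∀ x, A.φ x = 0 → ap (g : GL (Fin 3) F) x = β • x := by
  constructor
  · rintro ⟨b, hb⟩
    have key : ∀ w : Fin 2 → F, up K (A.res (g : GL (Fin 3) F) w) = b • up K w := fun w => by
      rw [← A.resK_up]; exact hb _
    refine ⟨A.res (g : GL (Fin 3) F) ![1, 0] 0, fun x hx => ?_⟩
    have hb0 : algebraMap F K (A.res (g : GL (Fin 3) F) ![1, 0] 0) = b := by
      have := congrFun (key ![1, 0]) 0
      simpa [up] using this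
    have h1 : A.res (g : GL (Fin 3) F) (A.coord x)
        = A.res (g : GL (Fin 3) F) ![1, 0] 0 • A.coord x :=
      up_inj K (by rw [key, up_smul, hb0])
    have h2 := congrArg A.emb h1
    rw [res_apply, A.emb_coord x hx, map_smul, A.emb_coord x hx,
      A.emb_coord _ (((hX g.2).2 x).mp hx)] at h2
    exact h2
  · rintro ⟨β, hβ⟩
    refine ⟨algebraMap F K β, fun w => ?_⟩
    have h1 : A.res (g : GL (Fin 3) F) = β • LinearMap.id := LinearMap.ext fun v => by
      rw [res_apply, hβ _ (A.φ_emb v), map_smul, A.coord_emb]; rfl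
    show Matrix.toLin' ((LinearMap.toMatrix' (A.res (g : GL (Fin 3) F))).map (algebraMap F K)) w = _
    rw [h1, map_smul, LinearMap.toMatrix'_id]
    funext i
    fin_cases i <;> simp [Matrix.mulVec, dotProduct, Matrix.one_apply]

/-- Invariant lines with a rational vector. -/
lemma isEig_up_iff (g : X) {x : Fin 3 → F} (hx : A.φ x = 0) (hx0 : x ≠ 0) :
    IsEig (A.rep K hX) g (up K (A.coord x)) ↔ ∃ β : F, ap (g : GL (Fin 3) F) x = β • x := by
  constructor
  · rintro ⟨b, hb⟩
    have hb' : up K (A.res (g : GL (Fin 3) F) (A.coord x)) = b • up K (A.coord x) := by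
      rw [← A.resK_up]; exact hb
    obtain ⟨i, hi⟩ : ∃ i, A.coord x i ≠ 0 := by
      by_contra hcon
      push Not at hcon
      exact hx0 (by rw [← A.emb_coord x hx, show A.coord x = 0 from funext hcon, map_zero])
    refine ⟨A.res (g : GL (Fin 3) F) (A.coord x) i / A.coord x i, ?_⟩
    have hb0 : algebraMap F K (A.res (g : GL (Fin 3) F) (A.coord x) i / A.coord x i) = b := by
      have := congrFun hb' i
      simp only [up, Pi.smul_apply, smul_eq_mul] at this
      rw [map_div₀, this, mul_div_assoc, div_self ((map_ne_zero _).mpr hi), mul_one]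
    have h1 : A.res (g : GL (Fin 3) F) (A.coord x) =
        (A.res (g : GL (Fin 3) F) (A.coord x) i / A.coord x i) • A.coord x :=
      up_inj K (by rw [hb', up_smul, hb0])
    generalize hβ : A.res (g : GL (Fin 3) F) (A.coord x) i / A.coord x i = β at h1 ⊢
    have h2 := congrArg A.emb h1
    rw [res_apply, A.emb_coord x hx, A.emb_coord _ (((hX g.2).2 x).mp hx), map_smul,
      A.emb_coord x hx] at h2
    exact h2
  · rintro ⟨β, hβ⟩
    refine ⟨algebraMap F K β, ?_⟩
    rw [rep_apply, resK_up, res_apply, A.emb_coord x hx, hβ, map_smul, up_smul]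

/-- Without transvections the representation has order prime to the characteristic. -/
lemma planeRep [Finite F] {H : Subgroup (GL (Fin 3) F)} (hT : NoTv H) (hXH : X ≤ H) :
    PlaneRep (A.rep K hX) := by
  refine ⟨Module.finrank_fin_fun K, fun h0 => ?_⟩
  have hF0 : ((Nat.card X : ℕ) : F) = 0 := by
    apply (algebraMap F K).injective
    rw [map_natCast, map_zero]; exact h0
  obtain ⟨p, hp⟩ := CharP.exists F
  have hpp : p.Prime := CharP.char_is_prime F p
  haveI : Fact p.Prime := ⟨hpp⟩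
  obtain ⟨g, hg⟩ := exists_prime_orderOf_dvd_card' (G := X) p ((CharP.cast_eq_zero_iff F p _).mp hF0)
  rw [← Subgroup.orderOf_coe] at hg
  obtain ⟨a, ha⟩ := (hX g.2).1
  obtain ⟨v, ψ, hψ, he⟩ := exists_tv_of_orderOf (g := (g : GL (Fin 3) F)) hpp (CharP.cast_eq_zero F p)
    (by rw [← hg]; exact pow_orderOf_eq_one _) A.φ_c ha (fun x hx => ((hX g.2).2 x).mp hx)
  have h1 := hT.eq_one (h := hψ) (he ▸ hXH g.2)
  rw [← he] at h1
  rw [h1, orderOf_one] at hg
  exact hpp.ne_one hg.symm

end Axis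

end CfsgLib.Geometric.SLThree
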